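import Cfsg.Agent.TIInvol.Basic
import Cfsg.Agent.CharDeep.ZassAbelian
import Cfsg.Prelude.Def_Involutions

/-!
# A TI subgroup inverted by an involution: the groups `PGL(2, q)` and `PSL(2, q)`
-/

set_option autoImplicit false

namespace Cfsg.Agent.TIInvol

open Subgroup TwoFusion MulAction
open Cfsg.Agent.PermB (ZData IsKernel)

universe u

variable {G : Type u} [Group G] {M : Subgroup G} {z : G}

theorem Hyp.case_large (h : Hyp M z) [Finite G] (hlarge : ¬ ∀ c ∈ cC M z, c = 1 ∨ c = z) :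
    ∃ (F : Type) (_ : Field F) (_ : Fintype F) (p : ℕ) (_ : Fact p.Prime) (_ : CharP F p),
      Fintype.card F = Nat.card M ∧ (IsMulCommutative M ∧ ∀ a ∈ M, a ^ p = 1) ∧
        (Nonempty (G ≃* (GL (Fin 2) F ⧸ Subgroup.center (GL (Fin 2) F))) ∨
         (Fintype.card F % 4 = 1 ∧
          Nonempty (G ≃* Matrix.ProjectiveSpecialLinearGroup (Fin 2) F))) := by
  classical
  have hprod := h.small_or_index_two.resolve_left hlarge
  obtain ⟨t, ht, htH, htN⟩ := h.exists_t
  have hti := involution_inv ht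
  have htC : t ∉ cC M z := fun e => htN e.1
  have hkey : ∀ g : G, ((g : G) : G ⧸ nM M) = ((1 : G) : G ⧸ nM M) ↔ g ∈ nM M := fun g => by
    rw [eq_comm, QuotientGroup.eq, inv_one, one_mul]
  have hsm : ∀ g x : G, g • (x : G ⧸ nM M) = ((g * x : G) : G ⧸ nM M) := fun _ _ => rfl
  set a : G ⧸ nM M := ((1 : G) : G ⧸ nM M) with ha
  set b : G ⧸ nM M := ((t : G) : G ⧸ nM M) with hb
  have hab : a ≠ b := fun e => htN ((hkey t).1 e.symm)
  have hsta : ∀ g : G, g • a = a ↔ g ∈ nM M := fun g => by rw [ha, hsm, mul_one, hkey]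
  have hstb : ∀ g : G, g • b = b ↔ t * g * t ∈ nM M := fun g => by
    rw [hb, hsm, eq_comm, QuotientGroup.eq, hti, mul_assoc]
  have hpair : ∀ g : G, g • a = a → g • b = b → g ∈ cC M z := fun g h1 h2 =>
    h.mem_cC_of_conj ht htH htN ((hsta g).1 h1) ((hstb g).1 h2)
  have hCfix : ∀ g ∈ cC M z, g • a = a ∧ g • b = b := fun g hg =>
    ⟨(hsta g).2 hg.1, (hstb g).2 (by rw [h.inverts_C ht htH htN hg]; exact inv_mem hg.1)⟩
  -- `M` is regular on the points other than `a`
  have hinj : ∀ k ∈ M, ∀ k' ∈ M, k • b = k' • b → k = k' := by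
    intro k hk k' hk' e
    rw [hb, hsm, hsm, QuotientGroup.eq] at e
    refine inv_mul_eq_one.1 (h.inter ht htH htN (mul_mem (inv_mem hk) hk') ?_)
    simpa [mul_assoc, hti] using e
  have hrep : ∀ y : G ⧸ nM M, y ≠ a → ∃ k ∈ M, y = k • b := by
    intro y hy
    induction y using QuotientGroup.induction_on with | _ g => ?_
    have hg : g ∉ nM M := fun e => hy ((hkey g).2 e)
    obtain ⟨m, hm, hgm⟩ := h.coset_exists hg
    obtain ⟨k, hk, hc⟩ := h.exists_commute hgm
    set u := k⁻¹ * (g * m) * k with hu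
    have huH : u ∈ hH z := mem_hH.2 (by
      calc k⁻¹ * (g * m) * k * z = k⁻¹ * (g * m * (k * z * k⁻¹)) * k := by group
        _ = k⁻¹ * (k * z * k⁻¹ * (g * m)) * k := by rw [hc.eq]
        _ = z * (k⁻¹ * (g * m) * k) := by group)
    have huN : u ∉ nM M := fun e => hg (by
      have := mul_mem (mul_mem (h.M_le hk) e) (h.M_le (mul_mem (inv_mem hk) (inv_mem hm)))
      simpa [hu, mul_assoc] using this)
    have htu := (hprod t htH u huH htC fun e => huN e.1).1
    refine ⟨k, hk, ?_⟩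
    rw [hb, hsm, eq_comm, QuotientGroup.eq]
    have e : (k * t)⁻¹ * g = t * u * (k⁻¹ * m⁻¹) := by
      rw [hu, mul_inv_rev, hti]; group
    rw [e]
    exact mul_mem htu (h.M_le (mul_mem (inv_mem hk) (inv_mem hm)))
  have hN : IsKernel (G := G) M a :=
    { le := fun g hg => mem_stabilizer_iff.2 ((hsta g).2 (h.M_le hg))
      conj := fun g hg u hu => conj_mem ((hsta g).1 hg) hu
      reg := fun y y' hy hy' => by
        obtain ⟨k, hk, rfl⟩ := hrep y hy
        obtain ⟨k', hk', rfl⟩ := hrep y' hy'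
        refine ⟨⟨k' * k⁻¹, mul_mem hk' (inv_mem hk)⟩, ?_, fun u hu => Subtype.ext ?_⟩
        · show (k' * k⁻¹) • k • b = k' • b
          rw [← mul_smul, inv_mul_cancel_right]
        · have hu' : ((u : G) * k) • b = k' • b := by rw [mul_smul]; exact hu
          have e := hinj _ (mul_mem u.2 hk) _ hk' hu'
          show (u : G) = k' * k⁻¹
          rw [← e, mul_inv_cancel_right] }
  -- double transitivity
  have htwo : ∀ {p q : G ⧸ nM M}, p ≠ q → ∃ g : G, g • a = p ∧ g • b = q := by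
    intro p q hpq
    induction p using QuotientGroup.induction_on with | _ g => ?_
    have hga : g • a = (g : G ⧸ nM M) := by rw [ha, hsm, mul_one]
    obtain ⟨k, hk, hke⟩ := hrep (g⁻¹ • q) fun e => hpq (by
      rw [inv_smul_eq_iff] at e; rw [e, hga])
    refine ⟨g * k, ?_, ?_⟩
    · rw [mul_smul, (hsta k).2 (h.M_le hk), hga]
    · rw [mul_smul, ← hke, smul_inv_smul]
  -- a swap of `a` and `b` lies in `C(z)`
  have hswap : ∀ w : G, w • a = b → w • b = a → w ∈ hH z ∧ w ∉ nM M := by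
    intro w hwa hwb
    refine ⟨?_, fun e => hab (by rw [← hwa, (hsta w).2 e])⟩
    have hwb' : w⁻¹ • b = a := inv_smul_eq_iff.2 hwa.symm
    have hwa' : w⁻¹ • a = b := inv_smul_eq_iff.2 hwb.symm
    obtain ⟨hza, hzb⟩ := hCfix z h.z_mem
    have h1 : (w * z * w⁻¹) • a = a := by rw [mul_smul, mul_smul, hwa', hzb, hwb]
    have h2 : (w * z * w⁻¹) • b = b := by rw [mul_smul, mul_smul, hwb', hza, hwa]
    have h3 := h.invol_C (hpair _ h1 h2) ((orderOf_conj' w z).trans h.two)
    exact mem_hH.2 (mul_inv_eq_iff_eq_mul.1 h3)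
  have hinv' : ∀ w : G, w • a = b → w • b = a → ∀ c ∈ cC M z, w * c * w⁻¹ = c⁻¹ := by
    intro w hwa hwb c hc
    obtain ⟨hwH, hwN⟩ := hswap w hwa hwb
    obtain ⟨-, hw2⟩ := h.invol_H hwH fun e => hwN e.1
    rw [involution_inv hw2]; exact h.inverts_C hw2 hwH hwN hc
  -- `z` moves `k • b` to `k⁻¹ • b`
  have hzk : ∀ k ∈ M, z • k • b = k⁻¹ • b := fun k hk => by
    rw [← mul_smul, h.z_mul hk, mul_smul, (hCfix z h.z_mem).2]
  have hne : ∀ k ∈ M, k ≠ 1 → k • b ≠ k⁻¹ • b := by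
    intro k hk hk1 e
    have h1 := hinj k hk _ (inv_mem hk) e
    have h2 := orderOf_eq_prime (p := 2) (by rw [pow_two]; nth_rewrite 2 [h1]; simp) hk1
    exact involution_ne_one h2 (h.no_even hk h2 rfl)
  have hthree : ∀ g : G, g • a = a → g • b = b → ∀ k ∈ M, k ≠ 1 → g • k • b = k • b → g = 1 := by
    intro g hga hgb k hk hk1 hgk
    have hgC := hpair g hga hgb
    have hgk' : g * k = k * g := by
      have h1 : (k⁻¹ * g * k) ∈ cC M z := hpair _
        (by rw [mul_smul, mul_smul, (hsta k).2 (h.M_le hk), hga,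
          (hsta k⁻¹).2 (h.M_le (inv_mem hk))])
        (by rw [mul_smul, mul_smul, hgk, inv_smul_smul])
      have h2 : (k⁻¹ * g * k) * g⁻¹ = 1 := h.inf_eq
        (by rw [show k⁻¹ * g * k * g⁻¹ = k⁻¹ * (g * k * g⁻¹) by group]
            exact mul_mem (inv_mem hk) (conj_mem hgC.1 hk))
        (mul_mem h1 (inv_mem hgC))
      calc g * k = k * (k⁻¹ * g * k * g⁻¹) * g := by group
        _ = k * g := by rw [h2, mul_one]
    have hgk2 : g • k⁻¹ • b = k⁻¹ • b := by
      rw [← mul_smul, (Commute.inv_right (show Commute g k from hgk')).eq, mul_smul, hgb]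
    obtain ⟨γ, hγa, hγb⟩ := htwo (hne k hk hk1)
    have hzk' : z • k⁻¹ • b = k • b := by rw [hzk _ (inv_mem hk), inv_inv]
    have e := hinv' (γ⁻¹ * z * γ)
      (by rw [mul_smul, mul_smul, hγa, hzk k hk, inv_smul_eq_iff, hγb])
      (by rw [mul_smul, mul_smul, hγb, hzk', inv_smul_eq_iff, hγa])
      (γ⁻¹ * g * γ) (hpair _ (by rw [mul_smul, mul_smul, hγa, hgk, inv_smul_eq_iff, hγa])
        (by rw [mul_smul, mul_smul, hγb, hgk2, inv_smul_eq_iff, hγb]))
    have hg2 : g = g⁻¹ := by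
      have e' := congrArg (fun x => γ * x * γ⁻¹) e
      have hgz : z * g * z⁻¹ = g := by
        rw [← (mem_hH.1 hgC.2), mul_inv_cancel_right]
      calc g = z * g * z⁻¹ := hgz.symm
        _ = γ * (γ⁻¹ * z * γ * (γ⁻¹ * g * γ) * (γ⁻¹ * z * γ)⁻¹) * γ⁻¹ := by group
        _ = γ * (γ⁻¹ * g * γ)⁻¹ * γ⁻¹ := by rw [e]
        _ = g⁻¹ := by group
    by_contra hg1
    have hgz := h.invol_C hgC (orderOf_eq_prime (by rw [pow_two]; nth_rewrite 2 [hg2]; simp) hg1)
    subst hgz
    exact hk1 (h.no_even hk h.two hgk')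
  obtain ⟨k0, hk0, hk01⟩ : ∃ k ∈ M, k ≠ 1 := by
    by_contra hall
    push Not at hall
    exact h.ne_bot (eq_bot_iff.2 fun x hx => Subgroup.mem_bot.2 (hall x hx))
  have hz : ZData G (G ⧸ nM M) :=
    { faithful := fun g hg => hthree g (hg a) (hg b) k0 hk0 hk01 (hg _)
      two := fun {p q r s} hpq hrs => by
        obtain ⟨g, hg1, hg2⟩ := htwo hpq
        obtain ⟨g', hg1', hg2'⟩ := htwo hrs
        exact ⟨g' * g⁻¹, by rw [mul_smul, ← hg1, inv_smul_smul, hg1'],
          by rw [mul_smul, ← hg2, inv_smul_smul, hg2']⟩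
      three := fun g {p q r} hpq hqr hpr hp hq hr => by
        obtain ⟨γ, hγp, hγq⟩ := htwo hpq
        obtain ⟨k, hk, hke⟩ := hrep (γ⁻¹ • r) fun e => hpr (by
          rw [inv_smul_eq_iff] at e; rw [e, hγp])
        have h1 := hthree (γ⁻¹ * g * γ)
          (by rw [mul_smul, mul_smul, hγp, hp, inv_smul_eq_iff, hγp])
          (by rw [mul_smul, mul_smul, hγq, hq, inv_smul_eq_iff, hγq]) k hk
          (fun e => hqr (by rw [e, one_smul, inv_smul_eq_iff] at hke; rw [hke, hγq]))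
          (by rw [← hke, mul_smul, mul_smul, smul_inv_smul, hr])
        calc g = γ * (γ⁻¹ * g * γ) * γ⁻¹ := by group
          _ = 1 := by rw [h1]; group }
  have hH2 : ZData.H2 (G := G) a b = cC M z := by
    ext g
    rw [ZData.mem_H2]
    exact ⟨fun e => hpair g e.1 e.2, hCfix g⟩
  have hcardΩ : Nat.card M + 1 = Nat.card (G ⧸ nM M) := hN.card_add_one hab.symm
  -- the order of `C`
  have hHC : Nat.card {g : hH z // (g : G) ∉ cC M z} = Nat.card (cC M z) :=
    Nat.card_congr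
      ⟨fun g => ⟨t * g.1, hprod t htH g.1 g.1.2 htC g.2⟩,
       fun c => ⟨⟨t * c, mul_mem htH c.2.2⟩, fun e => htC (by
         have := mul_mem e (inv_mem c.2); simpa using this)⟩,
       fun g => Subtype.ext (Subtype.ext (by
         show t * (t * (g.1 : G)) = g.1
         rw [← mul_assoc, involution_mul_self ht, one_mul])),
       fun c => Subtype.ext (by
         show t * (t * (c : G)) = c
         rw [← mul_assoc, involution_mul_self ht, one_mul])⟩
  set m := Nat.card M with hm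
  set d := Nat.card (cC M z) with hd
  have hHcard : Nat.card (hH z) = 2 * d := by
    have e2 : Nat.card {g : hH z // (g : G) ∈ cC M z} = d :=
      Nat.card_congr ⟨fun g => ⟨g.1, g.2⟩, fun g => ⟨⟨g, g.2.2⟩, g.2⟩, fun _ => rfl, fun _ => rfl⟩
    have e3 : Nat.card {g : hH z // (g : G) ∈ cC M z} +
        Nat.card {g : hH z // (g : G) ∉ cC M z} = Nat.card (hH z) := by
      rw [← Nat.card_sum]; exact Nat.card_congr (Equiv.sumCompl _)
    omega
  have hle := h.class_le
  rw [h.card_G, h.card_invol, hHC, hHcard] at hle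
  have hI := h.card_invol_H
  rw [hHcard] at hI
  have hI' : Nat.card {g : hH z // orderOf (g : G) = 2} = d + 1 := by omega
  rw [hI'] at hle
  have hdpos : 0 < d := Nat.card_pos
  have hmpos : 0 < m := Nat.card_pos
  rw [← hm, ← hd] at hle
  have hsmall : m ≤ 2 * d + 1 := by
    by_contra hlt
    have h1 : (d * m) * (2 * d + 2) ≤ (d * m) * m := Nat.mul_le_mul_left _ (by omega)
    nlinarith [Nat.mul_pos hdpos hmpos]
  have hdeven : Even d := by
    rw [even_iff_two_dvd]
    have := orderOf_dvd_natCard (⟨z, h.z_mem⟩ : cC M z)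
    rwa [Subgroup.orderOf_mk, h.two] at this
  obtain ⟨j, hj⟩ : d ∣ m - 1 := by
    have := CharDeep.ZA.card_H2_dvd hz hN hab
    rw [hH2, ← hcardΩ] at this
    rwa [show m + 1 - 2 = m - 1 by omega] at this
  have hm1 : 1 < m := (Subgroup.one_lt_card_iff_ne_bot M).2 h.ne_bot
  have hj12 : j = 1 ∨ j = 2 := by
    rcases j with _ | _ | _ | j
    · omega
    · exact Or.inl rfl
    · exact Or.inr rfl
    · exfalso; nlinarith [hj, hsmall, hdpos, Nat.sub_add_cancel hm1.le]
  -- `M` is elementary abelian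
  have hMc : IsMulCommutative M := ⟨⟨fun x y => Subtype.ext (h.M_comm x.2 y.2)⟩⟩
  set p := m.minFac with hp
  haveI hpf : Fact p.Prime := ⟨Nat.minFac_prime (by omega)⟩
  let P : Subgroup G :=
    { carrier := {x | x ∈ M ∧ x ^ p = 1}
      one_mem' := ⟨one_mem _, one_pow _⟩
      mul_mem' := fun {x y} hx hy => ⟨mul_mem hx.1 hy.1, by
        rw [(show Commute x y from h.M_comm hx.1 hy.1).mul_pow, hx.2, hy.2, one_mul]⟩
      inv_mem' := fun {x} hx => ⟨inv_mem hx.1, by rw [inv_pow, hx.2, inv_one]⟩ }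
  have hPM : P = M := by
    refine (hN.irreducible hz hab.symm ?_ P (fun x hx => hx.1) ?_).resolve_left ?_
    · rw [hH2, ← hcardΩ]; omega
    · intro c hc x hx
      rw [hH2] at hc
      exact ⟨conj_mem hc.1 hx.1, by rw [conj_pow, hx.2]; group⟩
    · intro e
      obtain ⟨x, hx⟩ := exists_prime_orderOf_dvd_card' (G := M) p (Nat.minFac_dvd m)
      have hxP : (x : G) ∈ P := ⟨x.2, by
        rw [← hx, ← Subgroup.orderOf_coe, pow_orderOf_eq_one]⟩
      rw [e, Subgroup.mem_bot] at hxP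
      rw [← Subgroup.orderOf_coe, hxP, orderOf_one] at hx
      exact (Nat.Prime.one_lt hpf.out).ne hx
  have hexp : ∀ x ∈ M, x ^ p = 1 := fun x hx => (hPM.ge hx).2
  obtain ⟨f, hf⟩ : ∃ f, m = p ^ f := by
    have hMp : IsPGroup p M := fun x => ⟨1, Subtype.ext (by simpa using hexp x x.2)⟩
    exact hMp.exists_card_eq
  have hchar : ∀ (K : Type) [Field K] [Fintype K], Fintype.card K = m → CharP K p := by
    intro K _ _ hK
    obtain ⟨r, hr⟩ := CharP.exists K
    obtain ⟨n, hrp, hn⟩ := FiniteField.card K r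
    have : r = p := by
      have h1 : r ∣ p ^ f := by rw [← hf, ← hK, hn]; exact dvd_pow_self r n.ne_zero
      exact (Nat.prime_dvd_prime_iff_eq hrp hpf.out).1 (hrp.dvd_of_dvd_pow h1)
    exact this ▸ hr
  -- a swap fixing a point
  have hk0' := hne k0 hk0 hk01
  obtain ⟨γ, hγa, hγb⟩ := htwo hk0'
  set s := γ⁻¹ * z * γ with hs
  have hsa : s • a = b := by rw [hs, mul_smul, mul_smul, hγa, hzk k0 hk0, inv_smul_eq_iff, hγb]
  have hsb : s • b = a := by
    rw [hs, mul_smul, mul_smul, hγb, hzk _ (inv_mem hk0), inv_inv, inv_smul_eq_iff, hγa]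
  have hsc : s • (γ⁻¹ • a) = γ⁻¹ • a := by
    rw [hs, mul_smul, mul_smul, smul_inv_smul, (hCfix z h.z_mem).1]
  have hca : γ⁻¹ • a ≠ a := fun e => by rw [e] at hsc; exact hab (hsc.symm.trans hsa)
  have hcb : γ⁻¹ • a ≠ b := fun e => by rw [e] at hsc; exact hab (hsb.symm.trans hsc)
  have hinv : ∀ c ∈ ZData.H2 (G := G) a b, s * c * s⁻¹ = c⁻¹ := fun c hc =>
    hinv' s hsa hsb c (hH2 ▸ hc)
  rcases hj12 with rfl | rfl
  · obtain ⟨K, iK, iF, hK, ⟨e⟩⟩ := PermB.exists_mulEquiv_pgl hz hN hab hca hcb hMc hsa hsb hsc hinv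
      (by rw [hH2, ← hcardΩ]; omega)
    have hKm : Fintype.card K = m := by omega
    exact ⟨K, iK, iF, p, hpf, hchar K hKm, hKm, ⟨hMc, hexp⟩, Or.inl ⟨e⟩⟩
  · obtain ⟨K, iK, iF, hK, -, ⟨e⟩⟩ := PermB.exists_mulEquiv_psl hz hN hab hca hcb hMc hsa hsb hsc
      hinv (by rw [hH2, ← hcardΩ]; omega) (by rw [hH2]; exact hdeven)
    have hKm : Fintype.card K = m := by omega
    obtain ⟨d', hd'⟩ := hdeven
    exact ⟨K, iK, iF, p, hpf, hchar K hKm, hKm, ⟨hMc, hexp⟩, Or.inr ⟨by omega, ⟨e⟩⟩⟩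

end Cfsg.Agent.TIInvol
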