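import Cfsg.Agent.TIInvol.Basic
import Cfsg.Agent.S1230
import Cfsg.Agent.S0041
import Cfsg.Agent.Spec.TorusTwo
import Cfsg.Agent.TwoGroups.Recognition
import Cfsg.Prelude.Def_Involutions

/-!
# A TI subgroup inverted by an involution with `C = ⟨z⟩`
-/

set_option autoImplicit false

namespace Cfsg.Agent.TIInvol

open Subgroup TwoFusion
open scoped MatrixGroups

universe u

theorem isCyclic_of_odd_abelian_psl {G : Type u} [Group G] [Finite G] {F : Type} [Field F] [Fintype F]
    (hF : (2 : F) = 0) (e : G ≃* Matrix.ProjectiveSpecialLinearGroup (Fin 2) F) (M : Subgroup G)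
    (hc : IsMulCommutative M) {x : G} (hx : x ∈ M) (hx2 : x * x ≠ 1) : IsCyclic M := by
  have hsq : ∀ r : F, r * r = 1 → r = 1 := fun r hr => by
    have : (r - 1) * (r - 1) = 0 := by linear_combination hr - (r - 1) * hF
    exact sub_eq_zero.1 (mul_self_eq_zero.1 this)
  have hcenter : Subgroup.center SL(2, F) = ⊥ := by
    rw [eq_bot_iff]
    intro x hx
    obtain ⟨r, hr, hrx⟩ := Matrix.SpecialLinearGroup.mem_center_iff.1 hx
    rw [Fintype.card_fin, pow_two] at hr
    rw [hsq r hr] at hrx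
    rw [Subgroup.mem_bot]
    apply Subtype.ext
    rw [← hrx]
    simp
  let e' : G ≃* SL(2, F) :=
    e.trans ((QuotientGroup.quotientMulEquivOfEq hcenter).trans QuotientGroup.quotientBot)
  set g := e' x with hg
  have hgsq : g * g ≠ 1 := by
    rw [hg, ← map_mul]
    exact fun h1 => hx2 (e'.injective (h1.trans (map_one e').symm))
  have ht : (g : Matrix (Fin 2) (Fin 2) F).trace ^ 2 ≠ 4 := by
    intro ht
    apply hgsq
    rw [show (4 : F) = 2 * 2 by norm_num, hF, mul_zero] at ht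
    have ht0 : (g : Matrix (Fin 2) (Fin 2) F).trace = 0 := eq_zero_of_pow_eq_zero ht
    have hdet := g.2
    rw [Matrix.trace_fin_two] at ht0
    rw [Matrix.det_fin_two] at hdet
    apply Subtype.ext
    rw [Matrix.SpecialLinearGroup.coe_mul, Matrix.SpecialLinearGroup.coe_one]
    ext i j
    fin_cases i <;> fin_cases j <;> simp [Matrix.mul_apply, Fin.sum_univ_two]
    · linear_combination (g : Matrix (Fin 2) (Fin 2) F) 0 0 * ht0 - hdet + (-1 : F) * hF
    · linear_combination (g : Matrix (Fin 2) (Fin 2) F) 0 1 * ht0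
    · linear_combination (g : Matrix (Fin 2) (Fin 2) F) 1 0 * ht0
    · linear_combination (g : Matrix (Fin 2) (Fin 2) F) 1 1 * ht0 - hdet + (-1 : F) * hF
  haveI := Spec.Two.isCyclic_centralizer g ht
  have hle : M.map e'.toMonoidHom ≤ centralizer ({g} : Set SL(2, F)) := by
    rintro _ ⟨y, hy, rfl⟩
    rw [mem_centralizer_singleton_iff, hg]
    show e' y * e' x = e' x * e' y
    rw [← map_mul, ← map_mul]
    exact congrArg e' (congrArg Subtype.val (hc.is_comm.comm ⟨y, hy⟩ ⟨x, hx⟩) :)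
  haveI : IsCyclic (M.map e'.toMonoidHom) :=
    (Subgroup.subgroupOfEquivOfLe hle).isCyclic.1 inferInstance
  exact (M.equivMapOfInjective e'.toMonoidHom e'.injective).isCyclic.2 inferInstance

variable {G : Type u} [Group G] {M : Subgroup G} {z : G}

set_option maxHeartbeats 2000000 in
theorem Hyp.case_small (h : Hyp M z) [Finite G] (hsmall : ∀ c ∈ cC M z, c = 1 ∨ c = z) :
    (∃ (F : Type) (_ : Field F) (_ : Fintype F) (e : ℕ), 1 < e ∧ Fintype.card F = 2 ^ e ∧
        IsCyclic ↥M ∧ Nat.card M = 2 ^ e + 1 ∧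
        Nonempty (G ≃* Matrix.ProjectiveSpecialLinearGroup (Fin 2) F)) ∨
    (∃ (d : ℕ) (E : Subgroup G), 1 ≤ d ∧ E.Normal ∧ (IsMulCommutative E ∧ ∀ a ∈ E, a ^ 2 = 1) ∧
        Nat.card E = 2 ^ (2 * d) ∧ E ⊓ nM M = ⊥ ∧ E ⊔ nM M = ⊤ ∧
        Nonempty (↥(nM M) ≃* DihedralGroup (2 ^ d + 1))) := by
  classical
  have hz1 : z ≠ 1 := involution_ne_one h.two
  have hC2 : Nat.card (cC M z) = 2 := by
    rw [Nat.card_eq_two_iff]
    refine ⟨⟨1, one_mem _⟩, ⟨z, h.z_mem⟩, fun e => hz1 (congrArg Subtype.val e).symm, ?_⟩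
    ext ⟨c, hc⟩
    simp only [Set.mem_insert_iff, Set.mem_singleton_iff, Set.mem_univ, iff_true, Subtype.ext_iff]
    exact hsmall c hc
  have hexp : ∀ g ∈ hH z, g * g = 1 := by
    intro g hg
    by_cases hgC : g ∈ cC M z
    · rcases hsmall g hgC with rfl | rfl
      · exact one_mul 1
      · exact h.z_sq
    · exact involution_mul_self (h.invol_H hg hgC).2
  have hHcomm : ∀ a ∈ hH z, ∀ b ∈ hH z, a * b = b * a := by
    intro a ha b hb
    calc a * b = a * (a * b * (a * b)) * b := by rw [hexp _ (mul_mem ha hb), mul_one]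
      _ = (a * a) * (b * a) * (b * b) := by group
      _ = b * a := by rw [hexp a ha, hexp b hb, one_mul, mul_one]
  obtain ⟨k, hk⟩ : ∃ k, Nat.card (hH z) = 2 ^ k :=
    (IsPGroup.exists_card_eq (G := hH z) (p := 2) fun g => ⟨1, Subtype.ext (by
      rw [pow_one, pow_two]; exact hexp g g.2)⟩)
  obtain ⟨t, ht, htH, htN⟩ := h.exists_t
  set q := Nat.card (hH z) with hq
  set m := Nat.card M with hm
  set I := Nat.card {g : G // orderOf g = 2} with hIdef
  have hHsplit : Nat.card {g : hH z // (g : G) ∉ cC M z} + 2 = q := by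
    have e2 : Nat.card {g : hH z // (g : G) ∈ cC M z} = 2 := hC2 ▸
      Nat.card_congr ⟨fun g => ⟨g.1, g.2⟩, fun g => ⟨⟨g, g.2.2⟩, g.2⟩, fun _ => rfl, fun _ => rfl⟩
    rw [add_comm, ← e2, ← Nat.card_sum]; exact Nat.card_congr (Equiv.sumCompl _)
  have hk2 : 2 ≤ k := by
    by_contra hlt
    haveI : Nonempty {g : hH z // (g : G) ∉ cC M z} := ⟨⟨⟨t, htH⟩, fun e => htN e.1⟩⟩
    have h1 : 0 < Nat.card {g : hH z // (g : G) ∉ cC M z} := Nat.card_pos
    have h2 : 2 ^ k ≤ 2 ^ 1 := Nat.pow_le_pow_right (by norm_num) (by omega)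
    omega
  set x := 2 ^ (k - 1) with hx
  have hqx : q = 2 * x := by
    rw [hk, hx, ← pow_succ', Nat.sub_add_cancel (by omega : 1 ≤ k)]
  have hx2 : 2 ≤ x := by
    rw [hx]
    calc 2 = 2 ^ 1 := rfl
      _ ≤ 2 ^ (k - 1) := Nat.pow_le_pow_right (by norm_num) (by omega)
  -- orders
  have hG : Nat.card G = m * 2 + m * (q - 2) * m := by
    rw [h.card_G, hC2, show Nat.card {g : hH z // (g : G) ∉ cC M z} = q - 2 by omega]
  have hI : I = m * (q - 1) := by
    have := h.card_invol_H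
    rw [hC2] at this
    rw [hIdef, h.card_invol, show Nat.card {g : hH z // orderOf (g : G) = 2} = q - 1 by omega]
  have hm1 : 1 < m := (Subgroup.one_lt_card_iff_ne_bot M).2 h.ne_bot
  have hmo := h.odd_card
  have hle := h.class_le
  rw [hG, ← hq, ← hIdef, hI] at hle
  have hmle : m ≤ q + 1 := by
    obtain ⟨r, hr⟩ : ∃ r, q = r + 2 := ⟨q - 2, by omega⟩
    rw [hr, show r + 2 - 2 = r by omega, show r + 2 - 1 = r + 1 by omega] at hle
    have hr0 : 0 < r := by omega
    by_contra hlt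
    have h1 : (m * r) * (r + 4) ≤ (m * r) * m := Nat.mul_le_mul_left _ (by omega)
    nlinarith [Nat.mul_pos (show 0 < m by omega) hr0]
  have hxdvd : x ∣ m - 1 := by
    have h1 : q ∣ Nat.card G := Subgroup.card_subgroup_dvd_card (hH z)
    rw [hG, show m * 2 + m * (q - 2) * m = m * (2 + (q - 2) * m) by ring] at h1
    have hcop : Nat.Coprime q m := by
      rw [hk]; exact Nat.Coprime.pow_left _ (Nat.coprime_two_left.2 hmo)
    obtain ⟨j, hj⟩ := hcop.dvd_of_dvd_mul_left h1
    have h2 : q * m = q * j + 2 * (m - 1) := by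
      rw [← hj]
      obtain ⟨r, hr⟩ : ∃ r, q = r + 2 := ⟨q - 2, by omega⟩
      rw [hr, Nat.add_sub_cancel, show (r + 2) * m = r * m + 2 * m by ring]
      omega
    have h3 : q ∣ 2 * (m - 1) := ⟨m - j, by rw [Nat.mul_sub q m j]; omega⟩
    rw [hqx] at h3
    exact Nat.dvd_of_mul_dvd_mul_left two_pos h3
  have hmcases : m = x + 1 ∨ m = q + 1 := by
    obtain ⟨j, hj⟩ := hxdvd
    rcases j with _ | _ | _ | j
    · omega
    · left; omega
    · right; rw [hqx]; omega
    · exfalso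
      have : x * 3 ≤ x * (j + 1 + 1 + 1) := Nat.mul_le_mul_left _ (by omega)
      omega
  have hclass := card_class G z
  rw [← hq, hG] at hclass
  rcases hmcases with hmx | hmq
  case inr =>
    left
    -- all involutions are conjugate to `z`
    have hZc : Nat.card {w : G // IsConj z w} = I := by
      refine Nat.eq_of_mul_eq_mul_right (show 0 < q by omega) (hclass.trans ?_)
      obtain ⟨r, hr⟩ : ∃ r, q = r + 2 := ⟨q - 2, by omega⟩
      rw [hI, hmq, hr, Nat.add_sub_cancel, show r + 2 - 1 = r + 1 by omega]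
      ring
    have hconj : ∀ s : G, orderOf s = 2 → IsConj z s := by
      intro s hs
      let f : {w : G // IsConj z w} → {g : G // orderOf g = 2} := fun w => ⟨w.1, by
        obtain ⟨g, hg⟩ := isConj_iff.1 w.2
        rw [← hg, orderOf_conj', h.two]⟩
      have hf : Function.Bijective f := (Nat.bijective_iff_injective_and_card f).2
        ⟨fun a b e => Subtype.ext (congrArg Subtype.val e :), hZc⟩
      obtain ⟨w, hw⟩ := hf.2 ⟨s, hs⟩
      have : w.1 = s := congrArg Subtype.val hw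
      exact this ▸ w.2
    have hC : ∀ s : G, orderOf s = 2 → IsMulCommutative (centralizer ({s} : Set G)) ∧
        ∀ c ∈ centralizer ({s} : Set G), c ^ 2 = 1 := by
      intro s hs
      obtain ⟨g, rfl⟩ := isConj_iff.1 (hconj s hs)
      have hmem : ∀ c ∈ centralizer ({g * z * g⁻¹} : Set G), g⁻¹ * c * g ∈ hH z := by
        intro c hc
        rw [mem_centralizer_singleton_iff] at hc
        refine mem_hH.2 ?_
        calc g⁻¹ * c * g * z = g⁻¹ * (c * (g * z * g⁻¹)) * g := by group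
          _ = g⁻¹ * (g * z * g⁻¹ * c) * g := by rw [hc]
          _ = z * (g⁻¹ * c * g) := by group
      refine ⟨⟨⟨fun a b => Subtype.ext ?_⟩⟩, fun c hc => ?_⟩
      · have e := hHcomm _ (hmem _ a.2) _ (hmem _ b.2)
        show (a : G) * b = b * a
        calc (a : G) * b = g * ((g⁻¹ * a * g) * (g⁻¹ * b * g)) * g⁻¹ := by group
          _ = (b : G) * a := by rw [e]; group
      · calc c ^ 2 = g * ((g⁻¹ * c * g) * (g⁻¹ * c * g)) * g⁻¹ := by rw [pow_two]; group
          _ = 1 := by rw [hexp _ (hmem c hc)]; group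
    haveI : Fact (Nat.Prime 2) := ⟨Nat.prime_two⟩
    obtain ⟨T, hT⟩ := (IsPGroup.of_card hk : IsPGroup 2 (hH z)).exists_le_sylow
    have hTcard : Nat.card T = q := by
      obtain ⟨l, hl⟩ := IsPGroup.iff_card.1 T.isPGroup'
      refine le_antisymm ?_ (Subgroup.card_le_of_le hT)
      have h1 : Nat.card T ∣ Nat.card G := Subgroup.card_subgroup_dvd_card _
      have h2 : Nat.card G = q * ((q + 1) * (q - 1)) := by
        rw [hG, hmq]
        obtain ⟨r, hr⟩ : ∃ r, q = r + 2 := ⟨q - 2, by omega⟩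
        rw [hr, Nat.add_sub_cancel, show r + 2 - 1 = r + 1 by omega]; ring
      rw [h2, hl] at h1
      rw [hl]
      refine Nat.le_of_dvd (by omega) ((Nat.Coprime.pow_left _ ?_).dvd_of_dvd_mul_right h1)
      refine Nat.coprime_two_left.2 (Odd.mul ?_ ?_)
      · exact ⟨x, by omega⟩
      · exact ⟨x - 1, by omega⟩
    have hTe : (T : Subgroup G) = hH z := (Subgroup.eq_of_le_of_card_ge hT hTcard.le).symm
    have hnc : ¬ IsCyclic (T : Subgroup G) := by
      intro hcy
      obtain ⟨⟨g, hgT⟩, hg⟩ := hcy.exists_ofOrder_eq_natCard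
      rw [Subgroup.orderOf_mk] at hg
      have h1 : orderOf g ∣ 2 := orderOf_dvd_of_pow_eq_one (by rw [pow_two]; exact hexp g (hTe ▸ hgT))
      rw [hg] at h1
      have := Nat.le_of_dvd two_pos h1
      omega
    have hnn : ¬ (T : Subgroup G).Normal := by
      intro hn
      have : Nat.card {w : G // IsConj z w} ≤ Nat.card T := Nat.card_le_card_of_injective
        (fun w => (⟨w.1, by
          obtain ⟨g, hg⟩ := isConj_iff.1 w.2
          rw [← hg]
          exact hn.conj_mem z (hTe ▸ mem_hH.2 rfl) g⟩ : T))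
        fun a b e => Subtype.ext (congrArg Subtype.val e :)
      rw [hZc, hI, hTcard, hmq] at this
      obtain ⟨r, hr⟩ : ∃ r, q = r + 2 := ⟨q - 2, by omega⟩
      rw [hr, show r + 2 - 1 = r + 1 by omega] at this
      nlinarith
    obtain ⟨F, iF, iFF, hFc, ⟨e⟩⟩ := Cfsg.Agent.S1230.result T hnc hnn hC
    have hFq : Fintype.card F = 2 ^ k := by rw [hFc, ← hk]; exact hTcard
    have hF2 : (2 : F) = 0 := by
      have := Nat.cast_card_eq_zero F
      rw [hFq, Nat.cast_pow, Nat.cast_ofNat] at this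
      exact eq_zero_of_pow_eq_zero this
    obtain ⟨a, ha, ha1⟩ : ∃ a ∈ M, a ≠ 1 := by
      by_contra hall
      push Not at hall
      exact h.ne_bot (eq_bot_iff.2 fun y hy => Subgroup.mem_bot.2 (hall y hy))
    refine ⟨F, iF, iFF, k, hk2, hFq, isCyclic_of_odd_abelian_psl hF2 e M
      ⟨⟨fun a b => Subtype.ext (h.M_comm a.2 b.2)⟩⟩ ha fun e2 => ?_, by omega, ⟨e⟩⟩
    have := orderOf_eq_prime (p := 2) (by rw [pow_two]; exact e2) ha1
    exact ha1 (h.no_even ha this rfl)
  right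
  -- the case of a regular normal elementary abelian subgroup
  have hG' : Nat.card G = 2 * x * x * (x + 1) := by
    rw [hG, hmx, hqx]
    obtain ⟨r, hr⟩ : ∃ r, x = r + 2 := ⟨x - 2, by omega⟩
    rw [hr, show 2 * (r + 2) - 2 = 2 * r + 2 by omega]; ring
  have hZc : Nat.card {w : G // IsConj z w} = x * (x + 1) := by
    refine Nat.eq_of_mul_eq_mul_right (show 0 < q by omega) (hclass.trans ?_)
    rw [← hG, hG', hqx]; ring
  have hHw : ∀ g : G, ∀ c : G, c ∈ hH (g * z * g⁻¹) ↔ g⁻¹ * c * g ∈ hH z := by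
    intro g c
    rw [mem_hH, mem_hH]
    constructor
    · intro e
      calc g⁻¹ * c * g * z = g⁻¹ * (c * (g * z * g⁻¹)) * g := by group
        _ = g⁻¹ * (g * z * g⁻¹ * c) * g := by rw [e]
        _ = z * (g⁻¹ * c * g) := by group
    · intro e
      calc c * (g * z * g⁻¹) = g * (g⁻¹ * c * g * z) * g⁻¹ := by group
        _ = g * (z * (g⁻¹ * c * g)) * g⁻¹ := by rw [e]
        _ = g * z * g⁻¹ * c := by group
  -- number of conjugates of `z` in `C(z)`
  have hn : Nat.card {w : G // IsConj z w ∧ w ∈ hH z} = x := by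
    refine Nat.eq_of_mul_eq_mul_left (show 0 < m by omega) ?_
    rw [show m * x = x * (x + 1) by rw [hmx]; ring, ← hZc, ← Nat.card_prod]
    refine Nat.card_congr (Equiv.ofBijective
      (fun p : M × {w : G // IsConj z w ∧ w ∈ hH z} =>
        (⟨(p.1 : G) * p.2.1 * (p.1 : G)⁻¹, p.2.2.1.trans (isConj_iff.2 ⟨(p.1 : G), rfl⟩)⟩ :
          {w : G // IsConj z w})) ⟨?_, ?_⟩)
    · rintro ⟨⟨a, ha⟩, w, hw1, hw2⟩ ⟨⟨a', ha'⟩, w', hw1', hw2'⟩ e
      simp only [Subtype.mk.injEq] at e
      have hc : ∀ {a w : G}, w ∈ hH z → Commute (a * w * a⁻¹) (a * z * a⁻¹) := by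
        intro a w hw
        exact Commute.map (mem_hH.1 hw) (MulAut.conj a).toMonoidHom
      obtain ⟨g, hg⟩ := isConj_iff.1 hw1
      have haa : a = a' := h.commute_unique (t := a * w * a⁻¹)
        (by rw [orderOf_conj', ← hg, orderOf_conj', h.two]) ha ha' (hc hw2) (e ▸ hc hw2')
      subst haa
      simp_all
    · rintro ⟨w, hw⟩
      obtain ⟨g, hg⟩ := isConj_iff.1 hw
      obtain ⟨a, ha, hc⟩ := h.exists_commute (t := w) (by rw [← hg, orderOf_conj', h.two])
      refine ⟨(⟨a, ha⟩, ⟨a⁻¹ * w * a, hw.trans (isConj_iff.2 ⟨a⁻¹, by group⟩), mem_hH.2 ?_⟩),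
        Subtype.ext ?_⟩
      · calc a⁻¹ * w * a * z = a⁻¹ * (w * (a * z * a⁻¹)) * a := by group
          _ = a⁻¹ * (a * z * a⁻¹ * w) * a := by rw [hc.eq]
          _ = z * (a⁻¹ * w * a) := by group
      · show a * (a⁻¹ * w * a) * a⁻¹ = w
        group
  have hpre : ∀ P : G → Prop, Nat.card {g : G // P (g * z * g⁻¹)} =
      Nat.card {w : G // IsConj z w ∧ P w} * q := by
    intro P
    have hlift : ∀ g g' : G, g⁻¹ * g' ∈ hH z → g * z * g⁻¹ = g' * z * g'⁻¹ := by
      intro g g' hgg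
      calc g * z * g⁻¹ = g * (z * (g⁻¹ * g')) * g'⁻¹ := by group
        _ = g * (g⁻¹ * g' * z) * g'⁻¹ := by rw [mem_hH.1 hgg]
        _ = g' * z * g'⁻¹ := by group
    rw [hq, ← Nat.card_prod]
    refine Nat.card_congr (Equiv.ofBijective (fun g : {g : G // P (g * z * g⁻¹)} =>
      ((⟨g.1 * z * g.1⁻¹, isConj_iff.2 ⟨g.1, rfl⟩, g.2⟩ : {w : G // IsConj z w ∧ P w}),
        (⟨(Function.invFun (fun a : G => a * z * a⁻¹) (g.1 * z * g.1⁻¹))⁻¹ * g.1, mem_hH.2 ?_⟩ :
          hH z))) ⟨?_, ?_⟩)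
    · have e := Function.invFun_eq (f := fun a : G => a * z * a⁻¹)
        (b := g.1 * z * g.1⁻¹) ⟨g.1, rfl⟩
      generalize Function.invFun (fun a : G => a * z * a⁻¹) (g.1 * z * g.1⁻¹) = a at e
      calc a⁻¹ * g.1 * z = a⁻¹ * (g.1 * z * g.1⁻¹) * g.1 := by group
        _ = z * (a⁻¹ * g.1) := by rw [← e]; group
    · rintro ⟨g, hg⟩ ⟨g', hg'⟩ e
      simp only [Prod.mk.injEq, Subtype.mk.injEq] at e
      obtain ⟨e1, e2⟩ := e
      rw [e1] at e2
      exact Subtype.ext (mul_left_cancel e2)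
    · rintro ⟨⟨w, hw1, hw2⟩, c, hc⟩
      set a := Function.invFun (fun a : G => a * z * a⁻¹) w with hadef
      have e : a * z * a⁻¹ = w :=
        Function.invFun_eq (f := fun a : G => a * z * a⁻¹) (isConj_iff.1 hw1)
      have e' : a * c * z * (a * c)⁻¹ = w := by
        rw [← hlift a (a * c) (by rw [inv_mul_cancel_left]; exact hc), e]
      refine ⟨⟨a * c, e'.symm ▸ hw2⟩, ?_⟩
      refine Prod.ext (Subtype.ext e') (Subtype.ext ?_)
      show (Function.invFun (fun a : G => a * z * a⁻¹) (a * c * z * (a * c)⁻¹))⁻¹ * (a * c) = c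
      rw [e', ← hadef, inv_mul_cancel_left]
  -- an involution commutes with exactly `x` conjugates of `z`
  have hcnt : ∀ s : G, orderOf s = 2 → Nat.card {w : G // IsConj z w ∧ Commute s w} = x := by
    intro s hs
    have h1 : Nat.card {g : G // Commute s (g * z * g⁻¹)} * m = Nat.card G := by
      rw [hm, ← Nat.card_prod]
      refine Nat.card_congr (Equiv.ofBijective
        (fun p : {g : G // Commute s (g * z * g⁻¹)} × M => p.1.1 * (p.2 : G)⁻¹) ⟨?_, ?_⟩)
      · rintro ⟨⟨g, hg⟩, a, ha⟩ ⟨⟨g', hg'⟩, a', ha'⟩ e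
        simp only at e
        set f := g * a⁻¹ with hf
        have hga : g = f * a := by rw [hf, inv_mul_cancel_right]
        have hga' : g' = f * a' := by rw [e, inv_mul_cancel_right]
        have hc : ∀ {g a : G}, g = f * a → Commute s (g * z * g⁻¹) →
            Commute (f⁻¹ * s * f) (a * z * a⁻¹) := by
          rintro g a rfl hg
          have := Commute.map hg (MulAut.conj f⁻¹).toMonoidHom
          simpa [mul_assoc] using this
        have haa : a = a' := h.commute_unique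
          (by simpa using (orderOf_conj' f⁻¹ s).trans hs) ha ha' (hc hga hg) (hc hga' hg')
        subst haa
        rw [← hga'] at hga
        exact Prod.ext (Subtype.ext hga) rfl
      · intro f
        obtain ⟨a, ha, hc⟩ := h.exists_commute (t := f⁻¹ * s * f)
          (by simpa using (orderOf_conj' f⁻¹ s).trans hs)
        refine ⟨(⟨f * a, ?_⟩, ⟨a, ha⟩), by simp⟩
        have := Commute.map hc (MulAut.conj f).toMonoidHom
        simpa [mul_assoc] using this
    rw [hpre (fun w => Commute s w), hG', hqx, hmx] at h1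
    refine Nat.eq_of_mul_eq_mul_right (show 0 < 2 * x * (x + 1) by positivity) ?_
    rw [show x * (2 * x * (x + 1)) = 2 * x * x * (x + 1) by ring, ← h1]
    ring
  have hcent : ∀ w : G, IsConj z w → w ∈ hH z → hH w = hH z := by
    intro w hw hwH
    obtain ⟨g, rfl⟩ := isConj_iff.1 hw
    refine (Subgroup.eq_of_le_of_card_ge (fun c hc => mem_hH.2 (hHcomm c hc _ hwH)) (le_of_eq ?_)).symm
    exact Nat.card_congr
      ⟨fun c => ⟨g⁻¹ * c * g, (hHw g c).1 c.2⟩,
       fun c => ⟨g * c * g⁻¹, (hHw g _).2 (by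
         rw [show g⁻¹ * (g * (c : G) * g⁻¹) * g = c by group]; exact c.2)⟩,
       fun c => Subtype.ext (by show g * (g⁻¹ * (c : G) * g) * g⁻¹ = c; group),
       fun c => Subtype.ext (by show g⁻¹ * (g * (c : G) * g⁻¹) * g = c; group)⟩
  have hcent_eq : ∀ s : G, orderOf s = 2 → ∀ w₁ w₂ : G, IsConj z w₁ → IsConj z w₂ →
      Commute s w₁ → Commute s w₂ → hH w₁ = hH w₂ := by
    intro s hs w₁ w₂ hw₁ hw₂ hc₁ hc₂
    obtain ⟨g, rfl⟩ := isConj_iff.1 hw₁
    set s' := g⁻¹ * s * g with hs'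
    have hs'2 : orderOf s' = 2 := by simpa [hs'] using (orderOf_conj' g⁻¹ s).trans hs
    have hs'H : s' ∈ hH z := (hHw g s).1 (mem_hH.2 hc₁.eq)
    -- everything commuting with `s'` lies in `C(z)`
    let f : {w : G // IsConj z w ∧ w ∈ hH z} → {w : G // IsConj z w ∧ Commute s' w} :=
      fun w => ⟨w.1, w.2.1, hHcomm _ hs'H _ w.2.2⟩
    have hf : Function.Bijective f := (Nat.bijective_iff_injective_and_card f).2
      ⟨fun a b e => Subtype.ext (congrArg Subtype.val e :), by rw [hn, hcnt s' hs'2]⟩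
    obtain ⟨w, hw⟩ := hf.2 ⟨g⁻¹ * w₂ * g, hw₂.trans (isConj_iff.2 ⟨g⁻¹, by group⟩), by
      have := Commute.map hc₂ (MulAut.conj g⁻¹).toMonoidHom
      simpa [hs', mul_assoc] using this⟩
    have hwe : w.1 = g⁻¹ * w₂ * g := congrArg Subtype.val hw
    have h2 : hH (g⁻¹ * w₂ * g) = hH z := hcent _ (hwe ▸ w.2.1) (hwe ▸ w.2.2)
    ext c
    rw [hHw g c, ← h2]
    simp only [mem_hH]
    constructor
    · intro e
      calc c * w₂ = g * (g⁻¹ * c * g * (g⁻¹ * w₂ * g)) * g⁻¹ := by group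
        _ = g * (g⁻¹ * w₂ * g * (g⁻¹ * c * g)) * g⁻¹ := by rw [e]
        _ = w₂ * c := by group
    · intro e
      calc g⁻¹ * c * g * (g⁻¹ * w₂ * g) = g⁻¹ * (c * w₂) * g := by group
        _ = g⁻¹ * (w₂ * c) * g := by rw [e]
        _ = g⁻¹ * w₂ * g * (g⁻¹ * c * g) := by group
  -- involutions not conjugate to `z` normalize every `C(w)`
  let K : Subgroup G := ⨅ w : {w : G // IsConj z w}, normalizer (hH w.1 : Set G)
  have hFK : ∀ s : G, orderOf s = 2 → ¬ IsConj z s → s ∈ K := by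
    intro s hs hsz
    rw [Subgroup.mem_iInf]
    rintro ⟨w, hw⟩
    obtain ⟨g, hg⟩ := isConj_iff.1 hw
    have hw2 : orderOf w = 2 := by rw [← hg, orderOf_conj', h.two]
    have hev : Even (orderOf (s * w)) := by
      rw [← Nat.not_odd_iff_even]
      intro ho
      obtain ⟨v, -, hv, -⟩ := exists_involution_conj_of_odd hs hw2 ho
      exact hsz (hw.trans (isConj_iff.2 ⟨v, hv⟩).symm)
    obtain ⟨c, hc, hcs, hcw⟩ := exists_involution_commute_of_even hs hw2 hev (orderOf_pos _).ne'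
    have hswc : hH (s * w * s⁻¹) = hH w := hcent_eq c hc _ _ (hw.trans (isConj_iff.2 ⟨s, rfl⟩)) hw
      ((hcs.mul_right hcw).mul_right hcs.inv_right) hcw
    refine Subgroup.mem_normalizer_iff.2 fun y => ?_
    have hy : s * y * s⁻¹ ∈ hH (s * w * s⁻¹) ↔ y ∈ hH w := by
      rw [mem_hH, mem_hH]
      constructor
      · intro e
        calc y * w = s⁻¹ * (s * y * s⁻¹ * (s * w * s⁻¹)) * s := by group
          _ = s⁻¹ * (s * w * s⁻¹ * (s * y * s⁻¹)) * s := by rw [e]
          _ = w * y := by group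
      · intro e
        calc s * y * s⁻¹ * (s * w * s⁻¹) = s * (y * w) * s⁻¹ := by group
          _ = s * (w * y) * s⁻¹ := by rw [e]
          _ = s * w * s⁻¹ * (s * y * s⁻¹) := by group
    rw [hswc] at hy
    exact hy.symm
  have hKconj : ∀ g : G, ∀ y ∈ K, g * y * g⁻¹ ∈ K := by
    intro g y hy
    rw [Subgroup.mem_iInf] at hy ⊢
    rintro ⟨w, hw⟩
    have h1 : y ∈ normalizer (hH (g⁻¹ * w * g) : Set G) :=
      hy ⟨g⁻¹ * w * g, hw.trans (isConj_iff.2 ⟨g⁻¹, by group⟩)⟩
    rw [Subgroup.mem_normalizer_iff] at h1 ⊢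
    intro c
    have key : ∀ c : G, c ∈ hH w ↔ g⁻¹ * c * g ∈ hH (g⁻¹ * w * g) := by
      intro c
      rw [mem_hH, mem_hH]
      constructor
      · intro e
        calc g⁻¹ * c * g * (g⁻¹ * w * g) = g⁻¹ * (c * w) * g := by group
          _ = g⁻¹ * (w * c) * g := by rw [e]
          _ = g⁻¹ * w * g * (g⁻¹ * c * g) := by group
      · intro e
        calc c * w = g * (g⁻¹ * c * g * (g⁻¹ * w * g)) * g⁻¹ := by group
          _ = g * (g⁻¹ * w * g * (g⁻¹ * c * g)) * g⁻¹ := by rw [e]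
          _ = w * c := by group
    rw [key, key, h1 (g⁻¹ * c * g)]
    group
  haveI hKn : K.Normal := ⟨fun y hy g => hKconj g y hy⟩
  -- the order of the normalizer of `C(z)`
  have hN : Nat.card (normalizer (hH z : Set G)) = x * q := by
    have h1 := hpre (fun w => w ∈ hH z)
    rw [hn] at h1
    rw [← h1]
    refine Nat.card_congr (Equiv.subtypeEquivRight fun g => ?_)
    constructor
    · intro hg
      exact (Subgroup.mem_normalizer_iff.1 hg z).1 (mem_hH.2 rfl)
    · intro hg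
      refine Subgroup.mem_normalizer_iff.2 fun c => ?_
      rw [← hcent _ (isConj_iff.2 ⟨g, rfl⟩) hg, hHw g (g * c * g⁻¹),
        show g⁻¹ * (g * c * g⁻¹) * g = c by group, hcent _ (isConj_iff.2 ⟨g, rfl⟩) hg]
  have hKle : K ≤ normalizer (hH z : Set G) := iInf_le_of_le ⟨z, IsConj.refl z⟩ le_rfl
  have hzK : ∀ w : G, IsConj z w → w ∉ K := by
    intro w hw hwK
    have hall : ∀ s : G, orderOf s = 2 → s ∈ K := by
      intro s hs
      by_cases hsz : IsConj z s
      · obtain ⟨g, rfl⟩ := isConj_iff.1 (hw.symm.trans hsz)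
        exact hKconj g w hwK
      · exact hFK s hs hsz
    have h1 : I + 1 ≤ Nat.card (normalizer (hH z : Set G)) := by
      rw [hIdef, ← Finite.card_option]
      refine Nat.card_le_card_of_injective (fun o : Option {g : G // orderOf g = 2} =>
        o.elim (1 : normalizer (hH z : Set G)) fun g => ⟨g.1, hKle (hall g.1 g.2)⟩) ?_
      rintro (_ | a) (_ | b) e
      · rfl
      · exact absurd (congrArg Subtype.val e).symm (involution_ne_one b.2)
      · exact absurd (congrArg Subtype.val e) (involution_ne_one a.2)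
      · exact congrArg some (Subtype.ext (congrArg Subtype.val e :))
    rw [hN, hI, hmx, hqx] at h1
    obtain ⟨r, hr⟩ : ∃ r, x = r + 1 := ⟨x - 1, by omega⟩
    rw [hr, show 2 * (r + 1) - 1 = 2 * r + 1 by omega] at h1
    nlinarith
  have hNsplit : Nat.card {g : G // orderOf g = 2 ∧ ¬ IsConj z g} + x * (x + 1) = I := by
    rw [← hZc, hIdef, ← Nat.card_congr (Equiv.sumCompl fun g : {g : G // orderOf g = 2} =>
      IsConj z g.1), Nat.card_sum, add_comm]
    congr 1
    · exact Nat.card_congr ⟨fun g => ⟨⟨g.1, by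
        obtain ⟨a, ha⟩ := isConj_iff.1 g.2
        rw [← ha, orderOf_conj', h.two]⟩, g.2⟩, fun g => ⟨g.1.1, g.2⟩, fun _ => rfl, fun _ => rfl⟩
    · exact Nat.card_congr ⟨fun g => ⟨⟨g.1, g.2.1⟩, g.2.2⟩, fun g => ⟨g.1.1, g.1.2, g.2⟩,
        fun _ => rfl, fun _ => rfl⟩
  have hFcard : Nat.card {g : G // orderOf g = 2 ∧ ¬ IsConj z g} + 1 = x * x := by
    rw [hI, hmx, hqx] at hNsplit
    obtain ⟨r, hr⟩ : ∃ r, x = r + 1 := ⟨x - 1, by omega⟩
    rw [hr, show 2 * (r + 1) - 1 = 2 * r + 1 by omega] at hNsplit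
    rw [hr]
    linarith [show (r + 1 + 1) * (2 * r + 1) + 1 =
      (r + 1) * (r + 1) + (r + 1) * (r + 1 + 1) by ring]
  let f : Option {g : G // orderOf g = 2 ∧ ¬ IsConj z g} → K := fun o =>
    o.elim 1 fun g => ⟨g.1, hFK g.1 g.2.1 g.2.2⟩
  have hfinj : Function.Injective f := by
    rintro (_ | a) (_ | b) e
    · rfl
    · exact absurd (congrArg Subtype.val e).symm (involution_ne_one b.2.1)
    · exact absurd (congrArg Subtype.val e) (involution_ne_one a.2.1)
    · exact congrArg some (Subtype.ext (congrArg Subtype.val e :))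
  have hKcard : Nat.card K = x * x := by
    refine le_antisymm ?_ ?_
    · obtain ⟨j, hj⟩ := Subgroup.card_dvd_of_le hKle
      rw [hN, hqx] at hj
      rcases j with _ | _ | j
      · rw [mul_zero] at hj
        nlinarith
      · have := Subgroup.eq_of_le_of_card_ge hKle (by rw [hN, hqx, hj]; simp)
        exact absurd (this ▸ Subgroup.le_normalizer (mem_hH.2 rfl) : z ∈ K) (hzK z (IsConj.refl z))
      · have : Nat.card K * 2 ≤ Nat.card K * (j + 1 + 1) := Nat.mul_le_mul_left _ (by omega)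
        nlinarith
    · rw [← hFcard, ← Finite.card_option]
      exact Nat.card_le_card_of_injective f hfinj
  have hf : Function.Bijective f := (Nat.bijective_iff_injective_and_card f).2
    ⟨hfinj, by rw [Finite.card_option, hFcard, hKcard]⟩
  have hKexp : ∀ y ∈ K, y * y = 1 := by
    intro y hy
    obtain ⟨o, ho⟩ := hf.2 ⟨y, hy⟩
    rcases o with _ | g
    · have : (1 : G) = y := congrArg Subtype.val ho
      rw [← this, mul_one]
    · have : g.1 = y := congrArg Subtype.val ho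
      rw [← this]; exact involution_mul_self g.2.1
  have hKc : IsMulCommutative K := ⟨⟨fun a b => Subtype.ext (by
    show (a : G) * b = b * a
    calc (a : G) * b = a * ((a : G) * b * (a * b)) * b := by
          rw [hKexp _ (mul_mem a.2 b.2), mul_one]
      _ = ((a : G) * a) * (b * a) * (b * b) := by group
      _ = b * a := by rw [hKexp _ a.2, hKexp _ b.2, one_mul, mul_one])⟩⟩
  have hKN : ∀ y ∈ K, y ∈ nM M → y = 1 := by
    intro y hy hyN
    by_contra hy1
    obtain ⟨a, ha, hya⟩ := h.invol_nM (orderOf_eq_prime (by rw [pow_two]; exact hKexp y hy) hy1) hyN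
    exact hzK y (hya ▸ isConj_iff.2 ⟨a, rfl⟩) hy
  have hinf : K ⊓ nM M = ⊥ := eq_bot_iff.2 fun y hy => Subgroup.mem_bot.2 (hKN y hy.1 hy.2)
  have hnMcard : Nat.card (nM M) = m * 2 := by rw [h.card_nM, hC2]
  have hsup : K ⊔ nM M = ⊤ := by
    refine Subgroup.eq_top_of_le_card _ ?_
    refine le_trans (le_of_eq ?_) (Nat.card_le_card_of_injective (fun p : K × nM M =>
      (⟨(p.1 : G) * p.2, Subgroup.mul_mem_sup p.1.2 p.2.2⟩ : ↥(K ⊔ nM M))) ?_)
    · rw [Nat.card_prod, hKcard, hnMcard, hG', hmx]; ring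
    · rintro ⟨a, b⟩ ⟨a', b'⟩ e
      have e' : (a : G) * b = a' * b' := congrArg Subtype.val e
      have h1 : (a' : G)⁻¹ * a = b' * (b : G)⁻¹ := by
        calc (a' : G)⁻¹ * a = (a' : G)⁻¹ * (a * b) * (b : G)⁻¹ := by group
          _ = b' * (b : G)⁻¹ := by rw [e']; group
      have h2 := hKN _ (mul_mem (inv_mem a'.2) a.2) (h1 ▸ mul_mem b'.2 (inv_mem b.2))
      rw [h2] at h1
      exact Prod.ext (Subtype.ext (inv_mul_eq_one.1 h2).symm)
        (Subtype.ext (mul_inv_eq_one.1 h1.symm).symm)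
  have hMcyc : IsCyclic M := by
    haveI := hKc
    refine Cfsg.Agent.S0041.result M K (fun e => ?_) (fun a _ => Subgroup.mem_normalizer_iff.2 fun c =>
      ⟨fun hc => hKconj a c hc, fun hc => by simpa [mul_assoc] using hKconj a⁻¹ _ hc⟩)
      (fun a ha ha1 => eq_bot_iff.2 fun y hy => Subgroup.mem_bot.2 ?_)
      (Or.inl ⟨⟨fun a b => Subtype.ext (h.M_comm a.2 b.2)⟩⟩)
    · rw [e, Subgroup.card_bot] at hKcard
      nlinarith
    · by_contra hy1
      exact ha1 (h.no_even ha (orderOf_eq_prime (by rw [pow_two]; exact hKexp y hy.1) hy1)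
        (mem_centralizer_singleton_iff.1 hy.2))
  refine ⟨k - 1, K, by omega, hKn, ⟨hKc, fun a ha => by rw [pow_two]; exact hKexp a ha⟩, ?_, hinf,
    hsup, ?_⟩
  · rw [hKcard, hx, ← pow_add]; congr 1; omega
  rw [← hx, ← hmx]
  obtain ⟨⟨a, ha⟩, hao⟩ := hMcyc.exists_ofOrder_eq_natCard
  rw [Subgroup.orderOf_mk] at hao
  haveI : NeZero m := ⟨by omega⟩
  refine TwoGroups.equiv_dihedral_of_generators (a := ⟨a, h.M_le ha⟩) (b := ⟨z, h.memN⟩)
    (by rw [Subgroup.orderOf_mk, hao]) (by rw [hnMcard, mul_comm]) (fun e => ?_)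
    (Subtype.ext h.z_sq) (Subtype.ext ?_)
  · obtain ⟨j, hj⟩ := Subgroup.mem_zpowers_iff.1 e
    have hzM : z ∈ M := by
      have : a ^ j = z := by simpa using congrArg Subtype.val hj
      exact this ▸ zpow_mem ha j
    exact hz1 (h.no_even hzM h.two rfl)
  · show z * a * z⁻¹ = a⁻¹
    rw [h.z_inv]; exact h.z_inverts ha

end Cfsg.Agent.TIInvol
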