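import Cfsg.Agent.InvAb.Main

/-!
# A TI subgroup inverted by an involution, with many involutions
-/

set_option autoImplicit false

namespace Cfsg.Agent.TIInvol

open Subgroup TwoFusion

universe u

variable {G : Type u} [Group G]

/-- The normalizer of `M`. -/
abbrev nM (M : Subgroup G) : Subgroup G := normalizer (M : Set G)

/-- The centralizer of `z`. -/
abbrev hH (z : G) : Subgroup G := centralizer ({z} : Set G)

/-- The centralizer of `z` in the normalizer of `M`. -/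
abbrev cC (M : Subgroup G) (z : G) : Subgroup G := nM M ⊓ hH z

/-- The hypotheses. -/
structure Hyp (M : Subgroup G) (z : G) : Prop where
  ne_bot : M ≠ ⊥
  ti : ∀ g : G, M ⊓ M.map (MulAut.conj g).toMonoidHom ≠ ⊥ →
    M.map (MulAut.conj g).toMonoidHom = M
  two : orderOf z = 2
  memN : z ∈ nM M
  fac : M ⊔ cC M z = nM M
  odd : ∀ x ∈ M, x ≠ 1 → Odd (Nat.card ↥(centralizer ({x} : Set G)))
  not_normal : ¬ M.Normal
  big : M.index < Nat.card {g : G // orderOf g = 2}

variable {M : Subgroup G} {z : G}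

theorem mem_hH {g : G} : g ∈ hH z ↔ g * z = z * g := mem_centralizer_singleton_iff

theorem conj_mem {n m : G} (hn : n ∈ nM M) (hm : m ∈ M) : n * m * n⁻¹ ∈ M :=
  (mem_normalizer_iff.1 hn m).1 hm

theorem conj_inv_mem {n m : G} (hn : n ∈ nM M) (hm : m ∈ M) : n⁻¹ * m * n ∈ M := by
  simpa using conj_mem (inv_mem hn) hm

namespace Hyp

theorem mem_cC {g : G} (hg : g ∈ nM M) (hgz : g * z = z * g) : g ∈ cC M z :=
  ⟨hg, mem_hH.2 hgz⟩

theorem z_sq (h : Hyp M z) : z * z = 1 := involution_mul_self h.two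

theorem z_inv (h : Hyp M z) : z⁻¹ = z := involution_inv h.two

theorem z_mem (h : Hyp M z) : z ∈ cC M z := mem_cC h.memN rfl

theorem ti_mem (h : Hyp M z) {x g : G} (hx : x ∈ M) (hx1 : x ≠ 1) (hgx : g * x * g⁻¹ ∈ M) :
    g ∈ nM M := by
  have hm := h.ti g fun e => hx1 <| by
    have h1 : g * x * g⁻¹ ∈ M ⊓ M.map (MulAut.conj g).toMonoidHom := ⟨hgx, x, hx, rfl⟩
    rw [e, mem_bot] at h1
    simpa using h1
  refine mem_normalizer_iff.2 fun m => ⟨fun hm' => ?_, fun hm' => ?_⟩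
  · rw [← hm]; exact ⟨m, hm', rfl⟩
  · rw [← hm] at hm'
    obtain ⟨y, hy, hye⟩ := hm'
    have : y = m := by simpa using hye
    exact this ▸ hy

theorem no_even (h : Hyp M z) [Finite G] {x t : G} (hx : x ∈ M) (ht : orderOf t = 2)
    (hc : Commute t x) : x = 1 := by
  by_contra hx1
  have h1 : t ∈ centralizer ({x} : Set G) := mem_centralizer_singleton_iff.2 hc.eq
  have h2 := orderOf_dvd_natCard (⟨t, h1⟩ : centralizer ({x} : Set G))
  rw [Subgroup.orderOf_mk, ht] at h2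
  exact Nat.not_even_iff_odd.2 (h.odd x hx hx1) (even_iff_two_dvd.2 h2)

theorem odd_card (h : Hyp M z) [Finite G] : Odd (Nat.card M) := by
  rw [← Nat.not_even_iff_odd]
  intro he
  obtain ⟨⟨x, hx⟩, hxo⟩ := exists_prime_orderOf_dvd_card' (G := M) 2 (even_iff_two_dvd.1 he)
  rw [Subgroup.orderOf_mk] at hxo
  exact involution_ne_one hxo (h.no_even hx hxo rfl)

theorem inf_eq (h : Hyp M z) [Finite G] {x : G} (hx : x ∈ M) (hxc : x ∈ cC M z) : x = 1 :=
  h.no_even hx h.two (mem_hH.1 hxc.2).symm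

theorem z_inverts (h : Hyp M z) [Finite G] {k : G} (hk : k ∈ M) : z * k * z = k⁻¹ := by
  have := InvAb.inverts_of_fpf h.z_sq (fun k hk => conj_mem h.memN hk)
    (fun k hk e => h.no_even hk h.two (mul_inv_eq_iff_eq_mul.1 e)) k hk
  rwa [h.z_inv] at this

theorem z_mul (h : Hyp M z) [Finite G] {k : G} (hk : k ∈ M) : z * k = k⁻¹ * z := by
  rw [← h.z_inverts hk, mul_assoc, h.z_sq, mul_one]

theorem conj_z (h : Hyp M z) [Finite G] {k : G} (hk : k ∈ M) : k * z * k⁻¹ = k * k * z := by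
  rw [mul_assoc, h.z_mul (inv_mem hk), inv_inv, mul_assoc]

theorem M_comm (h : Hyp M z) [Finite G] {a b : G} (ha : a ∈ M) (hb : b ∈ M) :
    a * b = b * a := by
  have e : (b * a)⁻¹ = (a * b)⁻¹ := by
    rw [← h.z_inverts (mul_mem ha hb), mul_inv_rev, ← h.z_inverts ha, ← h.z_inverts hb]
    calc z * a * z * (z * b * z) = z * a * (z * z) * b * z := by group
      _ = z * (a * b) * z := by rw [h.z_sq]; group
  exact (inv_injective e).symm

theorem decomp (h : Hyp M z) [Finite G] {n : G} (hn : n ∈ nM M) :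
    ∃ m ∈ M, ∃ c ∈ cC M z, n = m * c := by
  let S : Subgroup G :=
    { carrier := {n | ∃ m ∈ M, ∃ c ∈ cC M z, n = m * c}
      one_mem' := ⟨1, one_mem _, 1, one_mem _, (one_mul _).symm⟩
      mul_mem' := by
        rintro _ _ ⟨m, hm, c, hc, rfl⟩ ⟨m', hm', c', hc', rfl⟩
        exact ⟨m * (c * m' * c⁻¹), mul_mem hm (conj_mem hc.1 hm'), c * c', mul_mem hc hc', by group⟩
      inv_mem' := by
        rintro _ ⟨m, hm, c, hc, rfl⟩
        exact ⟨c⁻¹ * m⁻¹ * c, conj_inv_mem hc.1 (inv_mem hm), c⁻¹, inv_mem hc, by group⟩ }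
  have hle : M ⊔ cC M z ≤ S := sup_le (fun m hm => ⟨m, hm, 1, one_mem _, (mul_one m).symm⟩)
    fun c hc => ⟨1, one_mem _, c, hc, (one_mul c).symm⟩
  rw [← h.fac] at hn
  exact hle hn

theorem M_le (_ : Hyp M z) : M ≤ nM M := Subgroup.le_normalizer

theorem decomp_unique (h : Hyp M z) [Finite G] {m m' c c' : G} (hm : m ∈ M) (hm' : m' ∈ M)
    (hc : c ∈ cC M z) (hc' : c' ∈ cC M z) (e : m * c = m' * c') : m = m' ∧ c = c' := by
  have h1 : m'⁻¹ * m = c' * c⁻¹ := by
    calc m'⁻¹ * m = m'⁻¹ * (m * c) * c⁻¹ := by group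
      _ = c' * c⁻¹ := by rw [e]; group
  have h2 := h.inf_eq (mul_mem (inv_mem hm') hm) (h1 ▸ mul_mem hc' (inv_mem hc))
  refine ⟨(inv_mul_eq_one.1 h2).symm, ?_⟩
  rw [h2] at h1
  exact (mul_inv_eq_one.1 h1.symm).symm

theorem card_nM (h : Hyp M z) [Finite G] :
    Nat.card (nM M) = Nat.card M * Nat.card (cC M z) := by
  rw [← Nat.card_prod]
  refine (Nat.card_congr (Equiv.ofBijective (fun p : M × cC M z =>
    (⟨(p.1 : G) * p.2, mul_mem (h.M_le p.1.2) p.2.2.1⟩ : nM M)) ⟨?_, ?_⟩)).symm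
  · intro p q e
    obtain ⟨h1, h2⟩ := h.decomp_unique p.1.2 q.1.2 p.2.2 q.2.2 (congrArg Subtype.val e)
    exact Prod.ext (Subtype.ext h1) (Subtype.ext h2)
  · rintro ⟨n, hn⟩
    obtain ⟨m, hm, c, hc, rfl⟩ := h.decomp hn
    exact ⟨(⟨m, hm⟩, ⟨c, hc⟩), rfl⟩

theorem invol_C (h : Hyp M z) [Finite G] {c : G} (hc : c ∈ cC M z) (hc2 : orderOf c = 2) :
    c = z := by
  by_contra hne
  have hcz : Commute c z := mem_hH.1 hc.2
  have hcc : c * c = 1 := involution_mul_self hc2
  have hci : c⁻¹ = c := involution_inv hc2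
  have hinv := InvAb.inverts_of_fpf hcc (fun k hk => conj_mem hc.1 hk)
    (fun k hk e => h.no_even hk hc2 (mul_inv_eq_iff_eq_mul.1 e))
  obtain ⟨k, hk, hk1⟩ : ∃ k ∈ M, k ≠ 1 := M.ne_bot_iff_exists_ne_one.1 h.ne_bot |>.elim
    fun k hk => ⟨k, k.2, fun e => hk (Subtype.ext e)⟩
  have hcz2 : orderOf (c * z) = 2 := by
    refine orderOf_eq_prime ?_ fun e => hne ?_
    · rw [hcz.mul_pow, pow_two, pow_two, hcc, h.z_sq, one_mul]
    · rw [mul_eq_one_iff_eq_inv, h.z_inv] at e; exact e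
  refine hk1 (h.no_even hk hcz2 ?_)
  show c * z * k = k * (c * z)
  calc c * z * k = c * (z * k) := mul_assoc _ _ _
    _ = c * k⁻¹ * z := by rw [h.z_mul hk, mul_assoc]
    _ = c * k⁻¹ * c⁻¹ * (c * z) := by group
    _ = k * (c * z) := by rw [hinv _ (inv_mem hk), inv_inv]

theorem invol_nM (h : Hyp M z) [Finite G] {t : G} (ht : orderOf t = 2) (htN : t ∈ nM M) :
    ∃ k ∈ M, t = k * z * k⁻¹ := by
  obtain ⟨m, hm, c, hc, rfl⟩ := h.decomp htN
  have hcc : c * c = 1 := by
    refine ((h.decomp_unique (mul_mem hm (conj_mem hc.1 hm)) (one_mem M) (mul_mem hc hc)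
      (one_mem _) ?_)).2
    calc m * (c * m * c⁻¹) * (c * c) = m * c * (m * c) := by group
      _ = 1 * 1 := by rw [involution_mul_self ht, one_mul]
  have hc1 : c ≠ 1 := fun e => by
    subst e
    rw [mul_one] at ht
    exact involution_ne_one ht (h.no_even hm ht rfl)
  have hcz := h.invol_C hc (orderOf_eq_prime (by rw [pow_two]; exact hcc) hc1)
  subst hcz
  obtain ⟨j, hj⟩ := h.odd_card
  refine ⟨m ^ (j + 1), pow_mem hm _, ?_⟩
  have hp : m ^ (Nat.card M) = 1 :=
    congrArg Subtype.val (pow_card_eq_one' (x := (⟨m, hm⟩ : M)))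
  rw [h.conj_z (pow_mem hm _), ← pow_add, show j + 1 + (j + 1) = Nat.card M + 1 by omega,
    pow_succ, hp, one_mul]

theorem invol_conj (h : Hyp M z) (k : G) : orderOf (k * z * k⁻¹) = 2 :=
  (orderOf_conj' k z).trans h.two

theorem conj_z_inj (h : Hyp M z) [Finite G] {k k' : G} (hk : k ∈ M) (hk' : k' ∈ M)
    (e : k * z * k⁻¹ = k' * z * k'⁻¹) : k = k' := by
  refine (inv_mul_eq_one.1 (h.no_even (mul_mem (inv_mem hk') hk) h.two ?_)).symm
  show z * (k'⁻¹ * k) = k'⁻¹ * k * z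
  calc z * (k'⁻¹ * k) = k'⁻¹ * (k' * z * k'⁻¹) * k := by group
    _ = k'⁻¹ * k * z := by rw [← e]; group

theorem commute_unique (h : Hyp M z) [Finite G] {t k k' : G} (ht : orderOf t = 2) (hk : k ∈ M)
    (hk' : k' ∈ M) (h1 : Commute t (k * z * k⁻¹)) (h2 : Commute t (k' * z * k'⁻¹)) : k = k' := by
  refine h.conj_z_inj hk hk' ?_
  rw [← mul_inv_eq_one, h.conj_z hk, h.conj_z hk']
  refine h.no_even ?_ ht ?_
  · rw [mul_inv_rev, show k * k * z * (z⁻¹ * (k' * k')⁻¹) = k * k * (k' * k')⁻¹ by group]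
    exact mul_mem (mul_mem hk hk) (inv_mem (mul_mem hk' hk'))
  · rw [← h.conj_z hk, ← h.conj_z hk']
    exact h1.mul_right h2.inv_right

theorem coset_unique (h : Hyp M z) [Finite G] {t m : G} (ht : orderOf t = 2) (htN : t ∉ nM M)
    (hm : m ∈ M) (htm : (t * m) * (t * m) = 1) : m = 1 := by
  by_contra hm1
  refine htN (h.ti_mem hm hm1 ?_)
  rw [involution_inv ht, eq_inv_of_mul_eq_one_left
    (show t * m * t * m = 1 by rw [mul_assoc (t * m) t m]; exact htm)]
  exact inv_mem hm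

theorem coset_exists (h : Hyp M z) [Finite G] {g : G} (hg : g ∉ nM M) :
    ∃ m ∈ M, orderOf (g * m) = 2 := by
  classical
  by_contra hne
  push Not at hne
  have hk : ∀ t : {t : G // orderOf t = 2}, (t : G) ∈ nM M →
      ∃ k ∈ M, (t : G) = k * z * k⁻¹ := fun t ht => h.invol_nM t.2 ht
  choose K hKM hK using hk
  refine (Nat.card_le_card_of_injective (fun t : {t : G // orderOf t = 2} =>
    if ht : (t : G) ∈ nM M then ((K t ht * g : G) : G ⧸ M) else ((t : G) : G ⧸ M)) ?_).not_gt h.big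
  have key : ∀ {t k : G}, orderOf t = 2 → k ∈ M → ((k * g : G) : G ⧸ M) ≠ (t : G ⧸ M) := by
    intro t k ht hk e
    have h1 := QuotientGroup.eq.1 e
    refine hne ((k * g)⁻¹ * t * k) (mul_mem h1 hk) ?_
    rw [show g * ((k * g)⁻¹ * t * k) = k⁻¹ * t * k⁻¹⁻¹ by group]
    exact (orderOf_conj' k⁻¹ t).trans ht
  intro t t' e
  simp only at e
  split_ifs at e with h1 h2 h2
  · refine Subtype.ext ?_
    rw [hK t h1, hK t' h2]
    have e1 := QuotientGroup.eq.1 e
    have : K t h1 = K t' h2 := by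
      by_contra hne'
      refine hg (inv_mem_iff.1 (h.ti_mem (mul_mem (inv_mem (hKM t h1)) (hKM t' h2))
        (fun e2 => hne' (inv_mul_eq_one.1 e2)) ?_))
      simpa [mul_assoc] using e1
    rw [this]
  · exact absurd e (key t'.2 (hKM t h1))
  · exact absurd e.symm (key t.2 (hKM t' h2))
  · have e1 := QuotientGroup.eq.1 e
    have e2 := h.coset_unique t.2 h1 e1 (by
      rw [mul_inv_cancel_left]; exact involution_mul_self t'.2)
    exact Subtype.ext (inv_mul_eq_one.1 e2)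

theorem exists_outside (h : Hyp M z) [Finite G] : ∃ t : G, orderOf t = 2 ∧ t ∉ nM M := by
  obtain ⟨g, hg⟩ : ∃ g : G, g ∉ nM M := by
    by_contra hall
    push Not at hall
    exact h.not_normal ⟨fun m hm g => conj_mem (hall g) hm⟩
  obtain ⟨m, hm, hgm⟩ := h.coset_exists hg
  exact ⟨g * m, hgm, fun hc => hg (by simpa using mul_mem hc (h.M_le (inv_mem hm)))⟩

theorem exists_commute (h : Hyp M z) [Finite G] {t : G} (ht : orderOf t = 2) :
    ∃ k ∈ M, Commute t (k * z * k⁻¹) := by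
  by_cases htN : t ∈ nM M
  · obtain ⟨k, hk, rfl⟩ := h.invol_nM ht htN
    exact ⟨k, hk, rfl⟩
  have hg : t * z ∉ nM M := fun hc => htN (by simpa using mul_mem hc (inv_mem h.memN))
  obtain ⟨m, hm, htm⟩ := h.coset_exists hg
  have hzm : orderOf (z * m) = 2 := by
    refine orderOf_eq_prime ?_ fun e => ?_
    · rw [pow_two, ← mul_assoc, h.z_inverts hm, inv_mul_cancel]
    · have : z ∈ M := by rw [mul_eq_one_iff_eq_inv] at e; rw [e]; exact inv_mem hm
      exact involution_ne_one h.two (h.no_even this h.two rfl)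
  obtain ⟨k, hk, hkz⟩ := h.invol_nM hzm (mul_mem h.memN (h.M_le hm))
  refine ⟨k, hk, ?_⟩
  rw [← hkz]
  have e := involution_inv htm
  rw [mul_assoc, mul_inv_rev, involution_inv hzm, involution_inv ht] at e
  exact e.symm

theorem inter (h : Hyp M z) [Finite G] {t x : G} (ht : orderOf t = 2) (htH : t ∈ hH z)
    (htN : t ∉ nM M) (hx : x ∈ M) (hy : t * x * t ∈ nM M) : x = 1 := by
  by_contra hx1
  have hti := involution_inv ht
  have htt := involution_mul_self ht
  have hzt : t * z = z * t := mem_hH.1 htH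
  set y := t * x * t with hyd
  have hz' : z * y * z = y⁻¹ := by
    calc z * y * z = (z * t) * x * (t * z) := by rw [hyd]; group
      _ = t * (z * x * z) * t := by rw [← hzt]; nth_rewrite 2 [hzt]; group
      _ = y⁻¹ := by rw [h.z_inverts hx, hyd, mul_inv_rev, mul_inv_rev, hti]; group
  obtain ⟨m, hm, c, hc, e⟩ := h.decomp hy
  have hzc : c * z = z * c := mem_hH.1 hc.2
  have hcc : c = c⁻¹ := by
    refine (h.decomp_unique (inv_mem hm) (conj_inv_mem hc.1 (inv_mem hm)) hc (inv_mem hc) ?_).2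
    rw [show c⁻¹ * m⁻¹ * c * c⁻¹ = (m * c)⁻¹ by group, ← e, ← hz', e,
      show z * (m * c) * z = (z * m) * (c * z) by group, h.z_mul hm, hzc,
      show m⁻¹ * z * (z * c) = m⁻¹ * (z * z) * c by group, h.z_sq, mul_one]
  have hc2 : c * c = 1 := by nth_rewrite 2 [hcc]; exact mul_inv_cancel c
  -- `[y, x]` lies in two conjugates of `M`
  by_cases hc1 : c = 1
  · subst hc1
    rw [mul_one] at e
    refine htN (h.ti_mem hx hx1 ?_)
    rw [hti, ← hyd, e]; exact hm
  have hcz := h.invol_C hc (orderOf_eq_prime (by rw [pow_two]; exact hc2) hc1)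
  have hy2 : y * y = 1 := by
    rw [e, hcz, show m * z * (m * z) = m * (z * m * z) by group, h.z_inverts hm, mul_inv_cancel]
  have hx2 : x * x = 1 := by
    rw [show x * x = t⁻¹ * (t * x * t * (t * x * t)) * t⁻¹ by
      calc x * x = t⁻¹ * (t * x * (x * t)) * t⁻¹ := by group
        _ = t⁻¹ * (t * x * (t * t) * (x * t)) * t⁻¹ := by rw [htt, mul_one]
        _ = _ := by group, ← hyd, hy2, mul_one, hti, htt]
  exact involution_ne_one (orderOf_eq_prime (by rw [pow_two]; exact hx2) hx1)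
    (h.no_even hx (orderOf_eq_prime (by rw [pow_two]; exact hx2) hx1) rfl)

theorem mem_cC_of_conj (h : Hyp M z) [Finite G] {t n : G} (ht : orderOf t = 2) (htH : t ∈ hH z)
    (htN : t ∉ nM M) (hn : n ∈ nM M) (hn' : t * n * t ∈ nM M) : n ∈ cC M z := by
  obtain ⟨m, hm, c, hc, rfl⟩ := h.decomp hn
  have hzc : c * z = z * c := mem_hH.1 hc.2
  have hzt : t * z = z * t := mem_hH.1 htH
  have htt := involution_mul_self ht
  have hmm : m * c * z * (m * c)⁻¹ * z = m * m := by
    rw [show m * c * z * (m * c)⁻¹ * z = m * (c * z) * c⁻¹ * m⁻¹ * z by group, hzc,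
      show m * (z * c) * c⁻¹ * m⁻¹ * z = m * (z * m⁻¹ * z) by group, h.z_inverts (inv_mem hm),
      inv_inv]
  have htzt : t * z * t = z := by rw [hzt, mul_assoc, htt, mul_one]
  have h1 : t * (m * m) * t ∈ nM M := by
    have e : t * (m * m) * t = t * (m * c) * t * z * (t * (m * c) * t)⁻¹ * z := by
      rw [← hmm, show (t * (m * c) * t)⁻¹ = t⁻¹ * (m * c)⁻¹ * t⁻¹ by group, involution_inv ht]
      calc t * (m * c * z * (m * c)⁻¹ * z) * t
          = t * (m * c) * (t * t) * z * (t * t) * (m * c)⁻¹ * (t * t) * z * t := by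
            rw [htt]; group
        _ = t * (m * c) * t * (t * z * t) * (t * (m * c)⁻¹ * t) * (t * z * t) := by group
        _ = _ := by rw [htzt]
    rw [e]
    exact mul_mem (mul_mem (mul_mem hn' h.memN) (inv_mem hn')) h.memN
  have h2 := h.inter ht htH htN (mul_mem hm hm) h1
  have hm1 : m = 1 := by
    by_contra hne
    have := orderOf_eq_prime (p := 2) (by rw [pow_two]; exact h2) hne
    exact involution_ne_one this (h.no_even hm this rfl)
  rw [hm1, one_mul]
  exact hc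

theorem inverts_C (h : Hyp M z) [Finite G] {t c : G} (ht : orderOf t = 2) (htH : t ∈ hH z)
    (htN : t ∉ nM M) (hc : c ∈ cC M z) : t * c * t = c⁻¹ := by
  have hg : t * c ∉ nM M := fun e => htN (by simpa using mul_mem e (inv_mem hc.1))
  obtain ⟨m, hm, htm⟩ := h.coset_exists hg
  have hcm : c * m ∈ nM M := mul_mem hc.1 (h.M_le hm)
  have e : t * (c * m) * t = (c * m)⁻¹ := by
    refine eq_inv_of_mul_eq_one_left ?_
    calc t * (c * m) * t * (c * m) = t * c * m * (t * c * m) := by group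
      _ = 1 := involution_mul_self htm
  have h1 := h.mem_cC_of_conj ht htH htN hcm (e ▸ inv_mem hcm)
  have hm1 := h.inf_eq hm (by simpa using mul_mem (inv_mem hc) h1)
  rwa [hm1, mul_one] at e

theorem invol_H (h : Hyp M z) [Finite G] {g : G} (hg : g ∈ hH z) (hgC : g ∉ cC M z) :
    g ∉ nM M ∧ orderOf g = 2 := by
  have hgN : g ∉ nM M := fun e => hgC ⟨e, hg⟩
  refine ⟨hgN, ?_⟩
  obtain ⟨m, hm, hgm⟩ := h.coset_exists hgN
  have hgmN : g * m ∉ nM M := fun e => hgN (by simpa using mul_mem e (h.M_le (inv_mem hm)))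
  have e : z * (g * m) * z⁻¹ = g * m * (m⁻¹ * m⁻¹) := by
    rw [h.z_inv, show z * (g * m) * z = (z * g) * (m * z) by group, ← mem_hH.1 hg,
      show g * z * (m * z) = g * (z * m * z) by group, h.z_inverts hm]
    group
  have h2 := h.coset_unique hgm hgmN (mul_mem (inv_mem hm) (inv_mem hm)) (by
    rw [← e]; exact involution_mul_self ((orderOf_conj' z _).trans hgm))
  have hm1 : m = 1 := by
    by_contra hne
    have h3 : m ^ 2 = 1 := by rw [pow_two, ← inv_inj, inv_one, mul_inv_rev]; exact h2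
    have := orderOf_eq_prime (p := 2) h3 hne
    exact involution_ne_one this (h.no_even hm this rfl)
  rwa [hm1, mul_one] at hgm

theorem exists_t (h : Hyp M z) [Finite G] : ∃ t : G, orderOf t = 2 ∧ t ∈ hH z ∧ t ∉ nM M := by
  obtain ⟨t, ht, htN⟩ := h.exists_outside
  obtain ⟨k, hk, hc⟩ := h.exists_commute ht
  refine ⟨k⁻¹ * t * k, by simpa using (orderOf_conj' k⁻¹ t).trans ht, mem_hH.2 ?_, fun e => htN ?_⟩
  · calc k⁻¹ * t * k * z = k⁻¹ * (t * (k * z * k⁻¹)) * k := by group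
      _ = k⁻¹ * (k * z * k⁻¹ * t) * k := by rw [hc.eq]
      _ = z * (k⁻¹ * t * k) := by group
  · have := mul_mem (mul_mem (h.M_le hk) e) (h.M_le (inv_mem hk))
    simpa [mul_assoc] using this

theorem C_comm (h : Hyp M z) [Finite G] {a b : G} (ha : a ∈ cC M z) (hb : b ∈ cC M z) :
    a * b = b * a := by
  obtain ⟨t, ht, htH, htN⟩ := h.exists_t
  have e : (b * a)⁻¹ = (a * b)⁻¹ := by
    rw [← h.inverts_C ht htH htN (mul_mem ha hb), mul_inv_rev, ← h.inverts_C ht htH htN ha,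
      ← h.inverts_C ht htH htN hb]
    calc t * a * t * (t * b * t) = t * a * (t * t) * b * t := by group
      _ = t * (a * b) * t := by rw [involution_mul_self ht]; group
  exact (inv_injective e).symm

/-- Two elements of `C(z)` outside `C` differ by an element of `C`, unless `C = {1, z}`. -/
theorem small_or_index_two (h : Hyp M z) [Finite G] :
    (∀ c ∈ cC M z, c = 1 ∨ c = z) ∨
      ∀ a ∈ hH z, ∀ b ∈ hH z, a ∉ cC M z → b ∉ cC M z → a * b ∈ cC M z := by
  refine or_iff_not_imp_right.2 fun hne => ?_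
  push Not at hne
  obtain ⟨a, ha, b, hb, haC, hbC, habC⟩ := hne
  intro c hc
  obtain ⟨haN, ha2⟩ := h.invol_H ha haC
  obtain ⟨hbN, hb2⟩ := h.invol_H hb hbC
  obtain ⟨habN, hab2⟩ := h.invol_H (mul_mem ha hb) habC
  have hai : ∀ c ∈ cC M z, a * c * a = c⁻¹ := fun c hc => h.inverts_C ha2 ha haN hc
  have hbi : ∀ c ∈ cC M z, b * c * b = c⁻¹ := fun c hc => h.inverts_C hb2 hb hbN hc
  have e1 : a * b * c * (a * b) = c⁻¹ := h.inverts_C hab2 (mul_mem ha hb) habN hc
  have e2 : a * b * c * (b * a) = c := by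
    rw [show a * b * c * (b * a) = a * (b * c * b) * a by group, hbi c hc, hai _ (inv_mem hc),
      inv_inv]
  have e3 : b * a = a * b := by
    rw [← involution_inv hab2, mul_inv_rev, involution_inv hb2, involution_inv ha2]
  rw [e3, e1] at e2
  by_cases hc1 : c = 1
  · exact Or.inl hc1
  · refine Or.inr (h.invol_C hc (orderOf_eq_prime ?_ hc1))
    rw [pow_two]; nth_rewrite 1 [← e2]; exact inv_mul_cancel c

theorem card_invol_H (h : Hyp M z) [Finite G] :
    Nat.card {g : hH z // orderOf (g : G) = 2} + Nat.card (cC M z) = Nat.card (hH z) + 1 := by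
  classical
  have e1 : Nat.card {g : hH z // orderOf (g : G) = 2} =
      Nat.card {g : hH z // (g : G) ∉ cC M z} + 1 := by
    rw [← Finite.card_option]
    refine (Nat.card_congr (Equiv.ofBijective (fun o : Option {g : hH z // (g : G) ∉ cC M z} =>
      o.elim (⟨⟨z, mem_hH.2 rfl⟩, h.two⟩ : {g : hH z // orderOf (g : G) = 2})
        fun g => ⟨g.1, (h.invol_H g.1.2 g.2).2⟩) ⟨?_, ?_⟩)).symm
    · rintro (_ | g) (_ | g') e
      · rfl
      · refine absurd ?_ g'.2
        have : z = (g'.1 : G) := congrArg (fun x => ((x.1 : hH z) : G)) e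
        rw [← this]; exact h.z_mem
      · refine absurd ?_ g.2
        have : (g.1 : G) = z := congrArg (fun x => ((x.1 : hH z) : G)) e
        rw [this]; exact h.z_mem
      · have : g.1 = g'.1 := congrArg (fun x => x.1) e
        exact congrArg some (Subtype.ext this)
    · rintro ⟨g, hg⟩
      by_cases hgC : (g : G) ∈ cC M z
      · exact ⟨none, Subtype.ext (Subtype.ext (h.invol_C hgC hg).symm)⟩
      · exact ⟨some ⟨g, hgC⟩, rfl⟩
  have e2 : Nat.card {g : hH z // (g : G) ∈ cC M z} = Nat.card (cC M z) :=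
    Nat.card_congr ⟨fun g => ⟨g.1, g.2⟩, fun g => ⟨⟨g, g.2.2⟩, g.2⟩, fun _ => rfl, fun _ => rfl⟩
  have e3 : Nat.card {g : hH z // (g : G) ∈ cC M z} + Nat.card {g : hH z // (g : G) ∉ cC M z} =
      Nat.card (hH z) := by
    rw [← Nat.card_sum]; exact Nat.card_congr (Equiv.sumCompl _)
  omega

theorem card_invol (h : Hyp M z) [Finite G] :
    Nat.card {g : G // orderOf g = 2} =
      Nat.card M * Nat.card {g : hH z // orderOf (g : G) = 2} := by
  rw [← Nat.card_prod]
  refine (Nat.card_congr (Equiv.ofBijective (fun p : M × {g : hH z // orderOf (g : G) = 2} =>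
    (⟨(p.1 : G) * (p.2.1 : G) * (p.1 : G)⁻¹, (orderOf_conj' _ _).trans p.2.2⟩ :
      {g : G // orderOf g = 2})) ⟨?_, ?_⟩)).symm
  · rintro ⟨⟨k, hk⟩, ⟨g, hg⟩, hg2⟩ ⟨⟨k', hk'⟩, ⟨g', hg'⟩, hg2'⟩ e
    simp only [Subtype.mk.injEq] at e
    have hc : ∀ {k g : G}, g ∈ hH z → Commute (k * g * k⁻¹) (k * z * k⁻¹) := by
      intro k g hg
      exact Commute.map (mem_hH.1 hg) (MulAut.conj k).toMonoidHom
    have hkk : k = k' := h.commute_unique ((orderOf_conj' k g).trans hg2) hk hk' (hc hg)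
      (e ▸ hc hg')
    subst hkk
    simp_all
  · rintro ⟨t, ht⟩
    obtain ⟨k, hk, hc⟩ := h.exists_commute ht
    refine ⟨(⟨k, hk⟩, ⟨⟨k⁻¹ * t * k, mem_hH.2 ?_⟩,
      by simpa using (orderOf_conj' k⁻¹ t).trans ht⟩), Subtype.ext ?_⟩
    · calc k⁻¹ * t * k * z = k⁻¹ * (t * (k * z * k⁻¹)) * k := by group
        _ = k⁻¹ * (k * z * k⁻¹ * t) * k := by rw [hc.eq]
        _ = z * (k⁻¹ * t * k) := by group
    · show k * (k⁻¹ * t * k) * k⁻¹ = t
      group

theorem card_G (h : Hyp M z) [Finite G] :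
    Nat.card G = Nat.card M * Nat.card (cC M z) +
      Nat.card M * Nat.card {g : hH z // (g : G) ∉ cC M z} * Nat.card M := by
  classical
  have e3 : Nat.card {g : G // g ∈ nM M} + Nat.card {g : G // g ∉ nM M} = Nat.card G := by
    rw [← Nat.card_sum]; exact Nat.card_congr (Equiv.sumCompl _)
  rw [← e3, show Nat.card {g : G // g ∈ nM M} = Nat.card (nM M) from rfl, h.card_nM,
    ← Nat.card_prod M {g : hH z // (g : G) ∉ cC M z}, ← Nat.card_prod _ M]
  congr 1
  have hout : ∀ {k g m : G}, k ∈ M → g ∈ hH z → g ∉ cC M z → m ∈ M →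
      k * g * k⁻¹ * m ∉ nM M := by
    intro k g m hk hg hgC hm e
    refine (h.invol_H hg hgC).1 ?_
    have h1 := mul_mem (mul_mem (h.M_le (inv_mem hk)) e) (h.M_le (mul_mem (inv_mem hm) hk))
    simpa [mul_assoc] using h1
  refine (Nat.card_congr (Equiv.ofBijective
    (fun p : (M × {g : hH z // (g : G) ∉ cC M z}) × M =>
      (⟨(p.1.1 : G) * (p.1.2.1 : G) * (p.1.1 : G)⁻¹ * p.2,
        hout p.1.1.2 p.1.2.1.2 p.1.2.2 p.2.2⟩ : {g : G // g ∉ nM M})) ⟨?_, ?_⟩)).symm
  · rintro ⟨⟨⟨k, hk⟩, ⟨g, hg⟩, hgC⟩, m, hm⟩ ⟨⟨⟨k', hk'⟩, ⟨g', hg'⟩, hgC'⟩, m', hm'⟩ e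
    simp only [Subtype.mk.injEq] at e
    obtain ⟨-, hg2⟩ := h.invol_H hg hgC
    obtain ⟨-, hg2'⟩ := h.invol_H hg' hgC'
    have ht := (orderOf_conj' k g).trans hg2
    have htN : k * g * k⁻¹ ∉ nM M := by simpa using hout hk hg hgC (one_mem M)
    have e1 : k * g * k⁻¹ * (m * m'⁻¹) = k' * g' * k'⁻¹ := by
      rw [← mul_assoc, e, mul_inv_cancel_right]
    have hmm := h.coset_unique ht htN (mul_mem hm (inv_mem hm')) (by
      rw [e1]; exact involution_mul_self ((orderOf_conj' k' g').trans hg2'))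
    rw [mul_inv_eq_one] at hmm
    subst hmm
    rw [mul_inv_cancel, mul_one] at e1
    have hc : ∀ {k g : G}, g ∈ hH z → Commute (k * g * k⁻¹) (k * z * k⁻¹) := by
      intro k g hg
      exact Commute.map (mem_hH.1 hg) (MulAut.conj k).toMonoidHom
    have hkk : k = k' := h.commute_unique ht hk hk' (hc hg) (e1 ▸ hc hg')
    subst hkk
    simp_all
  · rintro ⟨g, hg⟩
    obtain ⟨m, hm, hgm⟩ := h.coset_exists hg
    obtain ⟨k, hk, hc⟩ := h.exists_commute hgm
    refine ⟨((⟨k, hk⟩, ⟨⟨k⁻¹ * (g * m) * k, mem_hH.2 ?_⟩, fun e => hg ?_⟩), ⟨m⁻¹, inv_mem hm⟩),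
      Subtype.ext ?_⟩
    · calc k⁻¹ * (g * m) * k * z = k⁻¹ * (g * m * (k * z * k⁻¹)) * k := by group
        _ = k⁻¹ * (k * z * k⁻¹ * (g * m)) * k := by rw [hc.eq]
        _ = z * (k⁻¹ * (g * m) * k) := by group
    · have := mul_mem (mul_mem (h.M_le hk) e.1) (h.M_le (mul_mem (inv_mem hk) (inv_mem hm)))
      simpa [mul_assoc] using this
    · show k * (k⁻¹ * (g * m) * k) * k⁻¹ * m⁻¹ = g
      group

end Hyp

/-- A class of conjugate elements times the order of the centralizer is the group order. -/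
theorem card_class (G : Type u) [Group G] [Finite G] (z : G) :
    Nat.card {w : G // IsConj z w} * Nat.card (hH z) = Nat.card G := by
  have e : Nat.card {w : G // IsConj z w} = (hH z).index := by
    refine (Nat.card_congr (Equiv.ofBijective (fun q : G ⧸ hH z =>
      Quotient.liftOn' q (fun g => (⟨g * z * g⁻¹, isConj_iff.2 ⟨g, rfl⟩⟩ : {w : G // IsConj z w}))
        fun a b hab => Subtype.ext ?_) ⟨?_, ?_⟩)).symm
    · rw [QuotientGroup.leftRel_apply] at hab
      show a * z * a⁻¹ = b * z * b⁻¹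
      calc a * z * a⁻¹ = a * (z * (a⁻¹ * b)) * b⁻¹ := by group
        _ = a * (a⁻¹ * b * z) * b⁻¹ := by rw [mem_hH.1 hab]
        _ = b * z * b⁻¹ := by group
    · intro p q
      induction p using QuotientGroup.induction_on with | _ a => ?_
      induction q using QuotientGroup.induction_on with | _ b => ?_
      intro hab
      refine QuotientGroup.eq.2 (mem_hH.2 ?_)
      have : a * z * a⁻¹ = b * z * b⁻¹ := congrArg Subtype.val hab
      calc a⁻¹ * b * z = a⁻¹ * (b * z * b⁻¹) * b := by group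
        _ = z * (a⁻¹ * b) := by rw [← this]; group
    · rintro ⟨w, hw⟩
      obtain ⟨g, rfl⟩ := isConj_iff.1 hw
      exact ⟨(g : G ⧸ hH z), rfl⟩
  rw [e, mul_comm, Subgroup.card_mul_index]

theorem Hyp.class_le (h : Hyp M z) [Finite G] :
    Nat.card G ≤ Nat.card (hH z) * Nat.card {g : G // orderOf g = 2} := by
  rw [← card_class G z, mul_comm]
  refine Nat.mul_le_mul_left _ (Nat.card_le_card_of_injective (fun w : {w : G // IsConj z w} =>
    (⟨w.1, ?_⟩ : {g : G // orderOf g = 2})) fun a b e => Subtype.ext (congrArg Subtype.val e :))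
  obtain ⟨g, hg⟩ := isConj_iff.1 w.2
  rw [← hg, orderOf_conj', h.two]

end Cfsg.Agent.TIInvol
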